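import Cfsg.Agent.Lib.Spor.H15LyD

set_option autoImplicit false
set_option linter.all false
set_option maxRecDepth 100000
set_option Elab.async false

namespace CA.H15Ly

open CA.CNet CA.CWord CA.CMat CA.PkM CA.PkW

theorem c0 : lall n0 (chk 5 111 F' 7 τ) = true := by decide +kernel
theorem c3 : lall n3 (chk 5 111 F' 7 τ) = true := by decide +kernel

end CA.H15Ly
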