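import Cfsg.Agent.Lib.Spor.H15LyD

set_option autoImplicit false
set_option linter.all false
set_option maxRecDepth 100000
set_option Elab.async false

namespace CA.H15Ly

open CA.CNet CA.CWord CA.CMat CA.PkM CA.PkW

def n4 : List Word := [[4, 7, 1, 3, 4, 6, 5, 1, 4, 2, 9, 7, 5, 2, 0, 3, 7, 4, 10, 12, 11, 12, 10, 13, 13, 11, 13, 11, 13, 13, 13, 11, 12, 10, 13, 13, 10, 1, 1, 1, 1]]
theorem c4 : lall n4 (chk 5 111 F' 7 τ) = true := by decide +kernel

end CA.H15Ly
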