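import Cfsg.Agent.Lib.Lin.SnPres
import Cfsg.Agent.Lib.Comp.CWord
import Cfsg.Prelude.Def_SporadicB

/-! Group-theoretic lemmas for the involution centraliser of the Lyons group. -/

set_option autoImplicit false

namespace CA.H15Ly

open CA.CWord Subgroup

theorem fix_odd {G X : Type*} [Group G] [MulAction G X] [Finite X] (hX : ¬2 ∣ Nat.card X) {u : G}
    (hu : u * u = 1) : ∃ x : X, u • x = x := by
  have : Fact (Nat.Prime 2) := ⟨Nat.prime_two⟩
  have hp : IsPGroup 2 (zpowers u) := fun x => ⟨1, by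
    obtain ⟨_, k, rfl⟩ := x
    refine Subtype.ext ?_
    simp only [pow_one, SubmonoidClass.coe_pow, OneMemClass.coe_one]
    rw [← zpow_natCast, ← zpow_mul, mul_comm, zpow_mul, zpow_natCast, sq, hu, one_zpow]⟩
  obtain ⟨x, hx⟩ := hp.nonempty_fixed_point_of_prime_not_dvd_card X hX
  exact ⟨x, hx ⟨u, mem_zpowers u⟩⟩

theorem conj_odd {G : Type*} [Group G] [Finite G] {T S : Subgroup G} (h : T ≤ S) {m : ℕ}
    (hm : Nat.card S = Nat.card T * m) (h2 : ¬2 ∣ m) {u : G} (hu : u ∈ S) (hu2 : u * u = 1) :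
    ∃ s ∈ S, s⁻¹ * u * s ∈ T := by
  have e := (T.subgroupOf S).card_mul_index
  rw [Nat.card_congr (subgroupOfEquivOfLe h).toEquiv, hm] at e
  have e' : (T.subgroupOf S).index = m := Nat.eq_of_mul_eq_mul_left Nat.card_pos e
  obtain ⟨x, hx⟩ := fix_odd (G := S) (X := S ⧸ T.subgroupOf S) (by rwa [← e'] at h2) (u := ⟨u, hu⟩)
    (Subtype.ext hu2)
  obtain ⟨s, rfl⟩ := QuotientGroup.mk_surjective x
  have := QuotientGroup.eq.1 hx.symm
  exact ⟨s, s.2, by simpa [mul_assoc, mem_subgroupOf] using this⟩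

theorem cover_congr {G G' A : Type*} [Group G] [Group G'] [Group A] (e : G ≃* G')
    (h : Cfsg.IsNonsplitDoubleCover G A) : Cfsg.IsNonsplitDoubleCover G' A := by
  obtain ⟨h1, ⟨f⟩, h3⟩ := h
  have hc : (center G).map (e : G →* G') = center G' := by
    ext x
    simp only [mem_map, mem_center_iff]
    constructor
    · rintro ⟨y, hy, rfl⟩ z
      obtain ⟨z, rfl⟩ := e.surjective z
      simp [← map_mul, hy]
    · exact fun hx => ⟨e.symm x, fun z => e.injective (by simp [hx]), by simp⟩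
  refine ⟨?_, ⟨(QuotientGroup.congr _ _ e hc).symm.trans f⟩, fun L hL => h3 (L.comap (e : G →* G')) ?_⟩
  · rw [← hc, card_map_of_injective e.injective, h1]
  · have k : ∀ x, x ∈ center G ↔ e x ∈ center G' := fun x => by
      rw [← hc]; exact (mem_map_iff_mem (f := (e : G →* G')) e.injective).symm
    refine isComplement'_of_disjoint_and_mul_eq_univ (disjoint_def.2 fun {x} a b => e.injective ?_) ?_
    · rw [map_one]; exact disjoint_def.1 hL.disjoint ((k x).1 a) b
    · refine Set.eq_univ_of_forall fun x => ?_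
      obtain ⟨⟨a, b⟩, hab⟩ := hL.2 (e x)
      exact ⟨e.symm a, (k _).2 (by simp), e.symm b, by simp, e.injective (by simpa using hab)⟩

/-- a group generated by lifts of a 3-cycle and a 9-cycle and a central involution which is a square -/
theorem cover_of {C : Type*} [Group C] {t a x y : C} (ht : t ∈ center C) (h2 : orderOf t = 2)
    (ha : a ^ 4 = t) (hx : x ^ 3 ∈ zpowers t) (hy : y ^ 9 ∈ zpowers t)
    (hk : ∀ k ∈ [1, 2, 3, 4], (x * (y ^ k * x * (y ^ k)⁻¹)) ^ 2 ∈ zpowers t)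
    (hg : ∀ N : Subgroup C, t ∈ N → (∀ i < 9, y ^ i * x * (y ^ i)⁻¹ ∈ N) → N = ⊤) :
    Cfsg.IsNonsplitDoubleCover C (alternatingGroup (Fin 11)) := by
  have hZ : zpowers t ≤ center C := (zpowers_le).2 ht
  have : (zpowers t).Normal := ⟨fun n hn g => by rw [mem_center_iff.1 (hZ hn) g]; simpa using hn⟩
  let π := QuotientGroup.mk' (zpowers t)
  have hπ : ∀ {c}, c ∈ zpowers t → π c = 1 := fun h => (QuotientGroup.eq_one_iff _).2 h
  have b3 : π x ^ 3 = 1 := by rw [← map_pow]; exact hπ hx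
  have b9 : π y ^ 9 = 1 := by rw [← map_pow]; exact hπ hy
  have bk : ∀ k ∈ [1, 2, 3, 4], (π x * (π y ^ k * π x * (π y ^ k)⁻¹)) ^ 2 = 1 := fun k h => by
    simpa using hπ (hk k h)
  have sw : ∀ {u v : C ⧸ zpowers t}, (u * v) ^ 2 = 1 → (v * u) ^ 2 = 1 := fun {u v} h => by
    calc _ = u⁻¹ * (u * v) ^ 2 * u := by rw [sq, sq]; group
      _ = 1 := by rw [h]; group
  have cj : ∀ (w : C ⧸ zpowers t) {u v}, (u * v) ^ 2 = 1 → (w * u * w⁻¹ * (w * v * w⁻¹)) ^ 2 = 1 :=
    fun w {u v} h => by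
      calc _ = w * (u * v) ^ 2 * w⁻¹ := by rw [sq, sq]; group
        _ = 1 := by rw [h]; group
  have bk' : ∀ k, 0 < k → k < 9 → (π x * (π y ^ k * π x * (π y ^ k)⁻¹)) ^ 2 = 1 := fun k h0 h9 => by
    by_cases h : k ≤ 4
    · exact bk k (by interval_cases k <;> simp)
    · have e : π y ^ (9 - k) = (π y ^ k)⁻¹ := by
        rw [eq_inv_iff_mul_eq_one, ← pow_add, Nat.sub_add_cancel h9.le, b9]
      have := cj (π y ^ k) (sw (bk (9 - k) (by interval_cases k <;> simp at h ⊢)))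
      rw [e] at this
      simpa [mul_assoc] using this
  have lt : ∀ i j : ℕ, i < j → j < 9 →
      (π y ^ i * π x * (π y ^ i)⁻¹ * (π y ^ j * π x * (π y ^ j)⁻¹)) ^ 2 = 1 := fun i j h h9 => by
    obtain ⟨k, rfl⟩ := Nat.exists_eq_add_of_le h.le
    have := cj (π y ^ i) (bk' k (by omega) (by omega))
    rw [pow_add]
    simpa [mul_assoc] using this
  have v9 : ∀ i : SchurCarm.I (9 : Fin 11) 10, (i.1 : ℕ) < 9 := fun i => by
    have a := i.2.1; have b := i.2.2; have := i.1.2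
    rw [Ne, Fin.ext_iff] at a b
    simp at a b; omega
  obtain ⟨f, hf⟩ := SchurCarm.exists_hom (p := (9 : Fin 11)) (q := 10) (by decide)
    (fun i => π y ^ (i.1 : ℕ) * π x * (π y ^ (i.1 : ℕ))⁻¹) (fun i => by rw [conj_pow, b3]; simp) fun i j h => by
      rcases lt_trichotomy (i.1 : ℕ) j.1 with k | k | k
      · exact lt _ _ k (v9 j)
      · exact absurd (Subtype.ext (Fin.ext k)) h
      · exact sw (lt _ _ k (v9 i))
  have hs : Function.Surjective f := fun c => by
    obtain ⟨c, rfl⟩ := QuotientGroup.mk'_surjective _ c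
    have := hg (f.range.comap π) (by simp [hπ (mem_zpowers t)]) fun i hi =>
      ⟨_, (hf ⟨⟨i, by omega⟩, by simp [Fin.ext_iff]; omega, by simp [Fin.ext_iff]; omega⟩).trans (by simp)⟩
    exact this.ge (mem_top c)
  have t1 : t ≠ 1 := fun e => by rw [e, orderOf_one] at h2; omega
  have c2 : Nat.card (zpowers t) = 2 := by rw [Nat.card_zpowers, h2]
  have a1 : π a ≠ 1 := fun e => by
    have := congrArg Subtype.val (pow_card_eq_one' (x := (⟨a, (QuotientGroup.eq_one_iff _).1 e⟩ : zpowers t)))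
    rw [c2] at this
    exact t1 (by rw [← ha, show 4 = 2 * 2 from rfl, pow_mul, show a ^ 2 = 1 from this, one_pow])
  have : IsSimpleGroup (alternatingGroup (Fin 11)) := alternatingGroup.isSimpleGroup (by simp)
  obtain ⟨σ, hσ⟩ := hs (π a)
  have hi := CA.SnPres.injective_of_simple f (x := σ) (hσ ▸ a1)
  have hc : center C = zpowers t := le_antisymm (fun c hc => by
    obtain ⟨s, e⟩ := hs (π c)
    have : s ∈ center _ := mem_center_iff.2 fun r => hi (by
      obtain ⟨r', e'⟩ := QuotientGroup.mk'_surjective _ (f r)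
      rw [map_mul, map_mul, e, ← e', ← map_mul, ← map_mul, mem_center_iff.1 hc])
    rw [alternatingGroup.center_eq_bot (by simp), mem_bot] at this
    rw [this, map_one] at e
    exact (QuotientGroup.eq_one_iff _).1 e.symm) hZ
  refine ⟨hc ▸ c2, ⟨(QuotientGroup.quotientMulEquivOfEq hc).trans (MulEquiv.ofBijective f ⟨hi, hs⟩).symm⟩,
    fun L hL => t1 (disjoint_def.1 hL.disjoint ht ?_)⟩
  have := L.mul_self_mem_of_index_two (by rw [hL.index_eq_card, hc, c2]) (a * a)
  rwa [show a * a * (a * a) = a ^ 4 by simp [pow_succ, mul_assoc], ha] at this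

open Equiv in
theorem coset_act {G : Type} [Group G] [Finite G] [IsSimpleGroup G] (A : Subgroup G) (hA : A ≠ ⊤) {n : ℕ} [NeZero n]
    (hn : A.index = n) : ∃ L : Subgroup (Perm (Fin n)), Nonempty (G ≃* L) ∧ MulAction.IsPretransitive L (Fin n) ∧
      Nonempty (A ≃* MulAction.stabilizer L (0 : Fin n)) := by
  obtain ⟨e, he⟩ : ∃ e : G ⧸ A ≃ Fin n, e (1 : G) = 0 :=
    let e := Finite.equivFinOfCardEq hn; ⟨e.trans (swap (e (1 : G)) 0), by simp⟩
  let ψ : G →* Perm (Fin n) := e.permCongrHom.toMonoidHom.comp (MulAction.toPermHom G (G ⧸ A))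
  have h1 : ∀ x q, ψ x (e q) = e (x • q) := fun x q => by simp [ψ]
  have h2 : ∀ x, ψ x 0 = 0 ↔ x ∈ A := fun x => by
    rw [← he, h1, e.apply_eq_iff_eq, eq_comm]; exact QuotientGroup.eq.trans (by simp)
  have h3 : Function.Injective ψ := (MonoidHom.ker_eq_bot_iff _).1 ((IsSimpleGroup.eq_bot_or_eq_top_of_normal _ inferInstance).resolve_right
    fun h => hA (eq_top_iff.2 fun x _ => (h2 x).1 (by rw [show ψ x = 1 from (h ▸ Subgroup.mem_top x : x ∈ ψ.ker)]; rfl)))
  refine ⟨ψ.range, ⟨ψ.ofInjective h3⟩, ⟨fun a b => ?_⟩, ⟨((ψ.ofInjective h3).subgroupMap A).trans (MulEquiv.subgroupCongr ?_)⟩⟩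
  · obtain ⟨x, hx⟩ := MulAction.exists_smul_eq G (e.symm a) (e.symm b)
    exact ⟨⟨_, x, rfl⟩, by simpa [hx] using! h1 x (e.symm a)⟩
  · ext ⟨_, x, rfl⟩
    refine Iff.trans ⟨?_, fun h => ⟨x, h, rfl⟩⟩ (h2 x).symm
    rintro ⟨y, hy, h⟩
    exact h3 (congrArg Subtype.val h) ▸ hy

end CA.H15Ly
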