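import Cfsg.Agent.Lib.Spor.H15LyE
import Cfsg.Agent.Lib.Spor.H15LyG
import Cfsg.Agent.Lib.Spor.LyZ
import Cfsg.Agent.S4279

/-! The centraliser of an involution of the Lyons group is generated by five elements. -/

set_option autoImplicit false
set_option maxRecDepth 100000

namespace CA.H15Ly
open Equiv CA.CNet CA.CWord CA.CLevel CA.CSimple CA.CPoint CA.CTodd CA.CPres CA.CLow CA.TCos CA.LyM CA.LyO
open Cfsg.Spor

noncomputable section

theorem ipt_app (f : ℕ → ℕ → ℕ) (u v : Word) (i : ℕ) : ipt f (u ++ v) i = ipt f v (ipt f u i) := by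
  induction u generalizing i with
  | nil => rfl
  | cons a u ih =>
    have e : ∀ w i, ipt f (a :: w) i = force (Nat.xor a 1) fun b => force (f b i) (ipt f w) := fun _ _ => rfl
    rw [List.cons_append, e, e, force_eq, force_eq, force_eq, force_eq, ih]

def tau (x : Perm (Fin C.n)) : List ℕ := B.map fun b => if h : b < C.n then (x⁻¹ ⟨b, h⟩ : ℕ) else 0

theorem tau_ev (w : Word) : lmap (ipt lk w) B = tau (C.ev w) := by
  rw [lmap_eq]
  refine List.map_congr_left fun b hb => ?_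
  have h : b < C.n := (by decide : ∀ b ∈ B, b < 19530) b hb
  rw [dif_pos h, ← ipt_eq hlk]

theorem eq_of_tau {u v : Word} (h : lmap (ipt lk u) B = lmap (ipt lk v) B) : C.ev u = C.ev v :=
  eq_of_eqQ hlk base (mem u) (mem v) (lall_iff.2 fun b hb => by
    rw [lmap_eq, lmap_eq] at h
    exact Nat.beq_eq ▸ List.map_inj_left.1 h b hb)

theorem eqQ_of {u v : Word} (h : C.ev u = C.ev v) : eqQ lk B (u, v) = true := lall_iff.2 fun b hb => by
  have := (tau_ev u).trans ((congrArg tau h).trans (tau_ev v).symm)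
  rw [lmap_eq, lmap_eq] at this
  exact Nat.beq_eq ▸ List.map_inj_left.1 this b hb

theorem syl {j : ℕ} (h : sylOK j = true) : Nat.card (C.grp (TW j)) = (nth TL [] j).length ∧
    ∀ u ∈ C.grp (TW j), u * u = 1 → ∃ i < j, ∃ x : Fin C.n, u x = x ∧ (M j i).testBit x = true := by
  simp only [sylOK, Bool.and_eq_true, decide_eq_true_eq, lall_iff, Bool.or_eq_true] at h
  obtain ⟨h0, h1, ⟨h2, h3⟩, h4⟩ := h
  have k1 : ∀ x ∈ C.grp (TW j), ∃ w, x = C.ev w ∧ lmap (ipt lk w) B ∈ nth TΛ [] j := fun x hx => by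
    have e : ∀ u v, lmap (ipt lk (u ++ v)) B = lmap (ipt lk v) (lmap (ipt lk u) B) := fun u v => by
      simp only [lmap_eq, List.map_map]
      exact List.map_congr_left fun b _ => ipt_app _ _ _ _
    induction hx using Subgroup.closure_induction_right with
    | one => exact ⟨[], rfl, h3⟩
    | mul_right x _ y hy ih =>
      obtain ⟨w, rfl, a⟩ := ih
      obtain ⟨v, hv, rfl⟩ := hy
      exact ⟨w ++ v, (ev_append _ _ _).symm, e w v ▸ (h1 v hv _ a).1⟩
    | mul_inv_cancel x _ y hy ih =>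
      obtain ⟨w, rfl, a⟩ := ih
      obtain ⟨v, hv, rfl⟩ := hy
      exact ⟨w ++ winv v, by rw [Ctx.ev, Ctx.ev, ev_append, ev_winv], e w _ ▸ (h1 v hv _ a).2⟩
  have k2 : ∀ x ∈ C.grp (TW j), ∃ e ∈ nth TL [] j, C.ev (subst (TW j) e.1) = x := fun x hx => by
    obtain ⟨w, rfl, a⟩ := k1 x hx
    rw [← h0, lmap_eq (l := nth TL [] j)] at a
    obtain ⟨e, he, b⟩ := List.mem_map.1 a
    exact ⟨e, he, eq_of_tau b⟩
  refine ⟨?_, fun u hu h2 => ?_⟩
  · classical
    have nd : ((nth TL [] j).map fun e => C.ev (subst (TW j) e.1)).Nodup := by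
      refine List.Nodup.of_map tau ?_
      rw [← h0, lmap_eq] at h2
      simpa only [List.map_map, tau_ev, Function.comp_def] using h2
    have : (C.grp (TW j) : Set (Perm (Fin C.n))) = ((nth TL [] j).map fun e => C.ev (subst (TW j) e.1)).toFinset := by
      ext x
      simp only [SetLike.mem_coe, List.coe_toFinset, Set.mem_ofPred_eq, List.mem_map]
      exact ⟨k2 x, by rintro ⟨e, -, rfl⟩; exact subst_mem_grp _ _ _⟩
    rw [show Nat.card (C.grp (TW j)) = Nat.card (C.grp (TW j) : Set (Perm (Fin C.n))) from rfl, this,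
      Nat.card_coe_set_eq, Set.ncard_coe_finset, List.toFinset_card_of_nodup nd, List.length_map]
  · obtain ⟨e, he, rfl⟩ := k2 u hu
    rcases h4 e he with a | ⟨a, b, c⟩
    · rw [eqQ_of (by rw [Ctx.ev, ev_subst, ev_append, ← ev_subst]; exact h2)] at a
      exact absurd a (by decide)
    · have hx : e.2.2 < C.n := by simpa [Nat.blt_eq] using (band_iff.1 b).1
      exact ⟨_, a, ⟨_, hx⟩, Fin.ext (mapsP_spec hlk (p := ⟨_, hx⟩) b), tb_eq _ _ ▸ c⟩

abbrev St (j : ℕ) : Subgroup H := (MulAction.stabilizer (Perm (Ly ⧸ K)) (S.p j)).comap S.ρ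

theorem card_St (j : ℕ) : Nat.card (S.O j) * Nat.card (St j) = 5859000000 := by
  let := MulAction.compHom (Ly ⧸ K) S.ρ
  have h2 := Nat.card_congr (MulAction.orbitProdStabilizerEquivGroup H (S.p j))
  rw [Nat.card_prod, card] at h2
  exact h2

theorem gw_le {i : ℕ} (h0 : i ≠ 0) (hi : i < 5) : (C.grp (TW i)).subgroupOf H ≤ St i := fun x hx => by
  have : C.grp (nth GW [] i) ≤ (St i).map H.subtype := by
    rw [grp_le_iff]
    intro w hw
    rcases (by decide +kernel : ∀ i < 5, ∀ w ∈ nth GW [] i, i = 0 ∨ (⟨0, i, [], i, w⟩ : Fact) ∈ F) i hi w hw with rfl | h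
    · exact absurd rfl h0
    · exact ⟨S.w w, ((holds _ h).1 rfl).symm, rfl⟩
  obtain ⟨y, hy, e⟩ := this (grp_subst_le _ _ _ hx)
  exact Subtype.ext e ▸ hy

theorem fixpt {j : ℕ} (h0 : j ≠ 0) (hj : j < 5) {u : H} (hu : u ∈ St j) (h2 : u * u = 1) :
    ∃ s ∈ St j, ∃ i < j, ∃ x : Fin C.n, (s⁻¹ * u * s).1 x = x ∧ (M j i).testBit x = true := by
  have so : sylOK j = true := by interval_cases j; exacts [absurd rfl h0, so1, so2, so3, so4]
  obtain ⟨a, b⟩ := syl so
  have le : C.grp (TW j) ≤ H := (grp_le_iff _).2 fun w _ => mem w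
  have c := card_St j
  rw [cardO LyZ.z_not ⟨j, hj⟩] at c
  obtain ⟨m, e, hm⟩ : ∃ m, Nat.card (St j) = (nth TL [] j).length * m ∧ ¬2 ∣ m := by
    interval_cases j
    · exact absurd rfl h0
    · exact ⟨9375, by
        have c' : 19530 * Nat.card (St 1) = 5859000000 := c
        rw [show (nth TL [] 1).length = 32 from by decide +kernel]; omega, by decide⟩
    · exact ⟨189, by
        have c' : 968750 * Nat.card (St 2) = 5859000000 := c
        rw [show (nth TL [] 2).length = 32 from by decide +kernel]; omega, by decide⟩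
    · exact ⟨45, by
        have c' : 2034375 * Nat.card (St 3) = 5859000000 := c
        rw [show (nth TL [] 3).length = 64 from by decide +kernel]; omega, by decide⟩
    · exact ⟨63, by
        have c' : 5812500 * Nat.card (St 4) = 5859000000 := c
        rw [show (nth TL [] 4).length = 16 from by decide +kernel]; omega, by decide⟩
  obtain ⟨s, hs, k⟩ := conj_odd (gw_le h0 hj) (m := m)
    (by rw [Nat.card_congr (Subgroup.subgroupOfEquivOfLe le).toEquiv, a, e]) hm hu h2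
  exact ⟨s, hs, b _ k (congrArg Subtype.val (show s⁻¹ * u * s * (s⁻¹ * u * s) = 1 by
    calc _ = s⁻¹ * (u * u) * s := by group
      _ = 1 := by rw [h2]; group))⟩

def tH : H := S.w tw
def yw : Word := [5, 6, 2, 1, 3, 4, 6, 8, 3, 5, 0, 4, 7, 5, 2, 0, 6, 5]
abbrev D : Subgroup Ly := grp g (K0 ++ [[8], yw])

theorem tH2 : tH * tH = 1 := (S.w_lapp tw tw).symm.trans (S.w_eq hlk base (v := []) tt)
theorem tH1 : tH ≠ 1 := fun e => by
  have := eqQ_of (u := tw) (v := []) (congrArg Subtype.val e)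
  rw [tn] at this
  exact absurd this (by decide)
theorem φt : φ tH = g 0 ^ 4 := (hφ tw).trans (by
  rw [show subst gens tw = [2 * 0] ++ ([2 * 0] ++ ([2 * 0] ++ [2 * 0])) from by decide +kernel]
  simp only [ev_append, ev_gen, pow_succ, pow_zero, one_mul, mul_assoc])

theorem K0D {c : H} (hc : c.1 ∈ C.grp K0) : φ c ∈ D := by
  have : C.grp K0 ≤ (D.comap φ).map H.subtype := by
    rw [grp_le_iff]
    intro w hw
    refine ⟨S.w w, ?_, rfl⟩
    show φ ⟨_, mem w⟩ ∈ D
    rw [hφ, (by decide +kernel : ∀ w ∈ K0, subst gens w = w) w hw]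
    exact mem_grp _ (List.mem_append_left _ hw)
  obtain ⟨y, hy, e⟩ := this hc
  exact Subtype.ext e ▸ hy

theorem pt_eq {m m' : H} (h : m.1 o = m'.1 o) :
    ((φ m * (g 4)⁻¹ : Ly) : Ly ⧸ K) = (φ m' * (g 4)⁻¹ : Ly) := by
  obtain ⟨v, hv⟩ := exists_subst (stab (m⁻¹ * m').1 (Subtype.prop _) (by
    show m.1⁻¹ (m'.1 o) = o
    rw [← h]; simp))
  have e := S.tw' v (((g 4)⁻¹ : Ly) : Ly ⧸ K)
  rw [show S.w (subst SW v) = m⁻¹ * m' from Subtype.ext hv] at e
  have e' : ((g 4 * (φ (m⁻¹ * m') * (g 4)⁻¹) : Ly) : Ly ⧸ K) = (φ (S.w (subst KW v)) * (g 4 * (g 4)⁻¹) : Ly) := e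
  have k := K.mul_mem (QuotientGroup.eq.1 e'.symm) (K.one_mem)
  rw [QuotientGroup.eq]
  have := K.mul_mem (φ_mem (S.w (subst KW v))) k
  simpa [mul_assoc] using this

theorem near {m : H} (h : tH.1 (m.1 o) = m.1 o) : ∃ y ∈ D, ((φ m * (g 4)⁻¹ : Ly) : Ly ⧸ K) = y := by
  have z : g 4 ∈ D := ev_gen g 4 ▸ mem_grp g (by decide)
  have le : C.grp K0 ≤ H := (grp_le_iff _).2 fun w _ => mem w
  have p1 : (C.pull tw Rm).testBit (m.1 o) = Rm.testBit (m.1 o) := by
    rw [Ctx.testBit_pull hC]; exact congrArg (fun x : Fin C.n => Rm.testBit x) h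
  have p2 : Rm.testBit (m.1 o) = false := by
    have := congrArg (Nat.testBit · (m.1 o)) (Nat.eq_of_beq_eq_true fx1)
    simp only [Nat.land_eq, Nat.testBit_and, p1, Bool.and_self, Nat.zero_testBit] at this
    exact this
  have p3 := sub_spec fx2 (i := m.1 o) (by simp [testBit_full])
  simp only [Nat.lor_eq, Nat.testBit_or, p1, p2, Bool.or_self, Bool.false_or, Bool.or_eq_true] at p3
  rcases p3 with a | a
  · obtain ⟨c, hc, e⟩ := clo_bit hC K0 _ o _ a
    exact ⟨_, D.mul_mem (K0D (c := ⟨c, le hc⟩) hc) (D.inv_mem z), pt_eq e.symm⟩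
  · obtain ⟨c, hc, e⟩ := clo_bit hC K0 _ ⟨201, by decide⟩ _ a
    have b : C.ev [5, 6, 2, 1, 3, 4, 6] o = ⟨201, by decide⟩ := Fin.ext (mapsP_spec hlk mp201)
    refine ⟨φ ⟨c, le hc⟩ * ev g yw, D.mul_mem (K0D hc) (mem_grp g (by decide)),
      (pt_eq (m' := ⟨c, le hc⟩ * S.w [5, 6, 2, 1, 3, 4, 6]) (by
        show _ = c (C.ev [5, 6, 2, 1, 3, 4, 6] o)
        rw [b, e])).trans ?_⟩
    have z2 : g 4 * g 4 = ev g (subst gens [0, 0]) := by
      have := zz
      rw [show [1, 1, 8, 8] = lapp (winv (subst gens [0, 0])) [2 * 4, 2 * 4] from by decide +kernel, ev_lapp, ev_winv,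
        inv_mul_eq_one, ev_cons g (2 * 4), ev_gen, lv_even] at this
      exact this.symm
    rw [QuotientGroup.eq, map_mul, show φ (S.w [5, 6, 2, 1, 3, 4, 6]) = _ from hφ _,
      show yw = subst gens [5, 6, 2, 1, 3, 4, 6] ++ ([2 * 4] ++ subst gens [3, 5, 0, 4, 7, 5, 2, 0, 6, 5]) from
        by decide +kernel, ev_append, ev_append, ev_gen]
    have := K.mul_mem (z2 ▸ subst_mem_grp g gens [0, 0]) (subst_mem_grp g gens [3, 5, 0, 4, 7, 5, 2, 0, 6, 5])
    simpa [mul_assoc] using this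

theorem conn (hD : ∀ y ∈ D, y * φ tH = φ tH * y) : ∀ j < 5, ∀ β ∈ S.O j, φ tH • β = β → ∃ y ∈ D, β = (y : Ly) := by
  intro j
  induction j using Nat.strong_induction_on with
  | _ j ih =>
  rintro hj _ ⟨k, rfl⟩ hβ
  by_cases h0 : j = 0
  · subst h0
    exact ⟨1 * 1, by simp, S.h0 k⟩
  have hβ' : S.ρ tH (S.ρ k (S.p j)) = S.ρ k (S.p j) := hβ
  obtain ⟨s, hs, i, hi, x, hx, hm⟩ := fixpt h0 hj (u := k⁻¹ * tH * k) (by
    show S.ρ (k⁻¹ * tH * k) (S.p j) = S.p j
    rw [map_mul, map_mul, Perm.mul_apply, Perm.mul_apply, hβ', map_inv]; simp) (by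
    calc _ = k⁻¹ * (tH * tH) * k := by group
      _ = 1 := by rw [tH2]; group)
  obtain ⟨h, hh, rfl⟩ := trans x
  obtain ⟨y, hy, e⟩ := near (m := k * s * ⟨h, hh⟩) (by
    have hx' : s.1⁻¹ (k.1⁻¹ (tH.1 (k.1 (s.1 (h o))))) = h o := hx
    rw [Perm.inv_eq_iff_eq, Perm.inv_eq_iff_eq] at hx'
    exact hx')
  obtain ⟨κ, hκ⟩ := φ_surj (QuotientGroup.eq.1 e.symm)
  have b := S.O_smul (edge j hj i (⟨h, hh⟩ : H)⁻¹ (by simpa using hm)) κ
  have hs' : φ s • S.p j = S.p j := hs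
  have c : S.ρ κ (S.Z (S.ρ (⟨h, hh⟩ : H)⁻¹ (S.p j))) = y⁻¹ • S.ρ k (S.p j) := by
    show φ κ • g 4 • φ _ • S.p j = y⁻¹ • φ k • S.p j
    conv_rhs => rw [← hs']
    simp only [hκ, smul_smul, map_mul, map_inv]
    congr 1
    group
  rw [c] at b
  obtain ⟨y', hy', e'⟩ := ih i hi (by omega) _ b (by
    rw [smul_smul, ← hD _ (D.inv_mem hy), mul_smul]
    exact congrArg _ hβ)
  exact ⟨y * y', D.mul_mem hy hy', (inv_smul_eq_iff.1 e')⟩

theorem φ_inj : Function.Injective φ := by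
  have := (Nat.bijective_iff_surjective_and_card (φ.codRestrict K φ_mem)).2 ⟨fun x => by
    obtain ⟨h, e⟩ := φ_surj x.2; exact ⟨h, Subtype.ext e⟩, card.trans LyZ.cardH.symm⟩
  exact fun a b h => this.1 (Subtype.ext h)

theorem ordH : orderOf tH = 2 := by
  have : Fact (Nat.Prime 2) := ⟨Nat.prime_two⟩
  exact orderOf_eq_prime (by rw [sq, tH2]) tH1

theorem cenH {c : H} (hc : c * tH = tH * c) : c.1 ∈ C.grp K0 := by
  obtain ⟨F5, _, _, h5, ⟨e⟩⟩ := LyZ.iso
  let e' : H ≃* Cfsg.Lie.chevG2.group F5 := (MulEquiv.ofBijective (φ.codRestrict K φ_mem)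
    ⟨fun a b h => φ_inj (congrArg Subtype.val h), fun x => by
      obtain ⟨h, e⟩ := φ_surj x.2; exact ⟨h, Subtype.ext e⟩⟩).trans e
  have a := (Cfsg.Agent.S4279.result (F := F5) (by rw [h5]; decide) (e' tH) (by rw [e'.orderOf_eq, ordH])).1
  rw [h5, ← Nat.card_congr (e'.toEquiv.subtypeEquiv (p := (· ∈ Subgroup.centralizer {tH})) fun x => by
    simp only [Subgroup.mem_centralizer_singleton_iff, MulEquiv.toEquiv_eq_coe, EquivLike.coe_coe, ← map_mul,
      e'.apply_eq_iff_eq])] at a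
  have le : C.grp K0 ≤ H := (grp_le_iff _).2 fun w _ => mem w
  have l2 : (C.grp K0).subgroupOf H ≤ Subgroup.centralizer {tH} := fun x hx => by
    have : C.grp K0 ≤ Subgroup.centralizer {tH.1} := (grp_le_iff _).2 fun w hw =>
      Subgroup.mem_centralizer_singleton_iff.2 ((ev_append _ _ _).symm.trans
        ((eq_of_eqQ hlk base (mem _) (mem _) (lall_iff.1 cmK w hw)).trans (ev_append _ _ _)))
    exact Subgroup.mem_centralizer_singleton_iff.2 (Subtype.ext (Subgroup.mem_centralizer_singleton_iff.1 (this hx)))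
  have := Subgroup.eq_of_le_of_card_ge l2 (by
    rw [Nat.card_congr (Subgroup.subgroupOfEquivOfLe le).toEquiv]
    exact (le_of_eq a).trans lowK.1)
  exact this.ge (Subgroup.mem_centralizer_singleton_iff.2 hc)

theorem cen_le (hD : ∀ y ∈ D, y * φ tH = φ tH * y) {c : Ly} (hc : c * φ tH = φ tH * c) : c ∈ D := by
  obtain ⟨j, hj, h⟩ := all (c : Ly ⧸ K)
  obtain ⟨y, hy, e⟩ := conn hD j hj _ h (by
    show ((φ tH * c : Ly) : Ly ⧸ K) = c
    rw [← hc, QuotientGroup.eq]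
    simpa using φ_mem tH)
  obtain ⟨k, hk⟩ := φ_surj (QuotientGroup.eq.1 e.symm)
  have := K0D (cenH (c := k) (φ_inj (by
    rw [map_mul, map_mul, hk, mul_assoc, hc, ← mul_assoc, hD _ (D.inv_mem hy), mul_assoc])))
  rw [hk] at this
  simpa using D.mul_mem hy this

end
end CA.H15Ly
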