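import Cfsg.Agent.Lib.Spor.H15LyA
import Cfsg.Agent.Lib.Spor.H15LyB
import Cfsg.Agent.Lib.Spor.H15LyC
import Cfsg.Agent.Lib.Spor.H15LyF
import Cfsg.Agent.S1702

/-! The centraliser of an involution of the Lyons group is a double cover of `A₁₁`. -/

set_option autoImplicit false
set_option maxRecDepth 100000

namespace CA.H15Ly
open CA.CNet CA.CWord CA.CMat CA.PkM CA.PkW CA.CPres CA.CTodd CA.LyO CA.LyM Cfsg.Spor Matrix

noncomputable section

def τ' : List Word := [[0], [2], [4], [6], [8], [6, 8, 6, 8], [4, 3, 5, 3, 0, 3, 5, 8, 6, 4, 3, 5, 3, 0, 3, 5, 1]]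
def g' (i : ℕ) : Ly := ev g (nth τ' [] i)
def NR : List Word := n0 ++ (n1 ++ (n2 ++ (n3 ++ n4)))

theorem g'_eq : ∀ i < 5, g' i = g i := fun i hi => by
  rw [g', (by decide +kernel : ∀ i < 5, nth τ' [] i = [2 * i]) i hi, ev_gen]

theorem rel : ∀ r ∈ NR, ev g' r = 1 := by
  obtain ⟨G0, h1, h2⟩ := exists_gl (p := 5) (n := 111) (by decide) (by decide) Ly111.hF Ly111.hI
  obtain ⟨ψ, h5⟩ := LyRel.enc.hom _ _ fun r hr => h2 Ly111.σ r (lall_iff.1 Ly111.rels r hr)
  have e : ∀ i < 5, ((ψ (g i) : GL (Fin 111) (ZMod 5)) : Matrix (Fin 111) (Fin 111) (ZMod 5)) =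
      val 5 111 (Ly111.F (2 * i)) := fun i hi => by
    rw [h5 i (by omega), (by decide +kernel : ∀ i < 5, nth Ly111.σ [] i = [2 * i]) i hi, ev_gen, h1 i (by omega)]
  obtain ⟨G1, k1, k2⟩ := exists_gl (p := 5) (n := 111) (by decide) (by decide) hF' hI'
  have k3 : ∀ r ∈ NR, ev (fun i => ev G1 (nth τ [] i)) r = 1 := fun r hr => k2 τ r (by
    simp only [NR, List.mem_append] at hr
    rcases hr with h | h | h | h | h
    exacts [lall_iff.1 c0 r h, lall_iff.1 c1 r h, lall_iff.1 c2 r h, lall_iff.1 c3 r h, lall_iff.1 c4 r h])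
  generalize hG : (fun i => ev G1 (nth τ [] i)) = G2 at k3
  have k4 : ∀ i < 5, G2 i = ψ (g i) := fun i hi => by
    rw [← hG]
    show ev G1 _ = _
    rw [(by decide +kernel : ∀ i < 5, nth τ [] i = [2 * i]) i hi, ev_gen]
    exact Units.ext (by rw [k1 i (by omega), e i hi, eF _ (by omega)])
  have k5 : ∀ i < 7, G2 i = ψ (g' i) := fun i hi => by
    by_cases h : i < 5
    · rw [g'_eq i h, k4 i h]
    obtain ⟨a, b⟩ := (by decide +kernel : ∀ i < 7, ¬i < 5 →
      lapp (winv [2 * i]) (nth τ' [] i) ∈ NR ∧ ∀ a ∈ nth τ' [] i, a < 2 * 5) i hi h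
    have := k3 _ a
    rw [ev_lapp, ev_winv, ev_gen, inv_mul_eq_one] at this
    rw [this, g', map_ev, ev_congr k4 b]
  have := Cfsg.Agent.S1702.result.1
  have hi := CA.SnPres.injective_of_simple ψ (x := g 0) fun h => Ly111.ne (by rw [← e 0 (by decide), h]; rfl)
  intro r hr
  refine hi ?_
  rw [map_ev, ← ev_congr k5 ((by decide +kernel : ∀ r ∈ NR, ∀ a ∈ r, a < 2 * 7) r hr), k3 r hr, map_one]

def UW : List (Word × Word) := [([13, 10, 12, 12, 10, 12, 12, 11, 12, 10, 12, 10, 13, 13, 13, 10, 13, 11, 13, 13, 11, 12], [1, 1, 1, 1]),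
  ([10, 12, 12, 10, 12, 11, 13, 10, 13, 13], []),
  ([10, 12, 11, 12, 12, 10, 12, 11, 13, 10, 12, 12, 11, 12, 11, 12, 12, 12, 10, 12, 12, 11, 13], []),
  ([11, 12, 10, 12, 12, 11, 12, 10, 13, 13, 11, 13, 10, 13], [1, 1, 1, 1]),
  ([10, 12, 11, 12, 10, 13, 13, 11, 13, 11, 13, 13, 13, 11, 12, 10, 13, 13, 10], [1, 1, 1, 1])]

theorem ev_t : ev g' [1, 1, 1, 1] = (g 0 ^ 4)⁻¹ := by
  simp [lv, g'_eq 0 (by decide), pow_succ, mul_assoc]

theorem D_le {N : Subgroup Ly} (ht : g 0 ^ 4 ∈ N) (hx : g' 5 ∈ N) (hy : g' 6 ∈ N) : D ≤ N := by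
  rw [grp_le_iff]
  intro w hw
  obtain ⟨p, -, a, b, c, d⟩ := (by decide +kernel : ∀ w ∈ K0 ++ [[8], yw], ∃ p ∈ UW,
    lapp (winv w) (p.1 ++ p.2) ∈ NR ∧ (∀ a ∈ p.1, a / 2 = 5 ∨ a / 2 = 6) ∧ (p.2 = [] ∨ p.2 = [1, 1, 1, 1]) ∧
      ∀ a ∈ w, a < 2 * 5) w hw
  have := rel _ a
  rw [ev_lapp, ev_winv, inv_mul_eq_one, ev_append] at this
  rw [← ev_congr g'_eq d, this]
  refine N.mul_mem (N.list_prod_mem fun x hx' => ?_) ?_
  · obtain ⟨l, hl, rfl⟩ := List.mem_map.1 hx'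
    have : g' (l / 2) ∈ N := by rcases b l hl with e | e <;> rwa [e]
    unfold lv
    split_ifs
    exacts [this, N.inv_mem this]
  · rcases c with e | e <;> rw [e]
    exacts [N.one_mem, ev_t ▸ N.inv_mem ht]

def YW : List Word := (List.range 9).map fun i => List.replicate i 12 ++ 10 :: List.replicate i 13

theorem ev_YW (i : ℕ) : ev g' (List.replicate i 12 ++ 10 :: List.replicate i 13) = g' 6 ^ i * g' 5 * (g' 6 ^ i)⁻¹ := by
  rw [ev_append, ev_cons]
  simp [ev, lv, mul_assoc]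

theorem Y_mem {N : Subgroup Ly} (h : ∀ i < 9, g' 6 ^ i * g' 5 * (g' 6 ^ i)⁻¹ ∈ N) : g' 6 ∈ N := by
  have a := rel (lapp (winv [2 * 6]) (red 0 (subst YW [0, 17, 14, 13, 10, 9, 6, 5, 2, 1]))) (by decide +kernel)
  rw [ev_lapp, ev_winv, ev_gen, inv_mul_eq_one, ev_red (im := 0) (by simp)] at a
  refine a ▸ (grp_le_iff g').2 (fun w hw => ?_) (subst_mem_grp g' YW _)
  obtain ⟨i, hi, rfl⟩ := List.mem_map.1 hw
  exact ev_YW i ▸ h i (List.mem_range.1 hi)

theorem mx0 : g' 5 ∈ grp g (K0 ++ [[8]]) := by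
  rw [g', show nth τ' [] 5 = subst (K0 ++ [[8]]) [2, 6, 2, 6] from by decide +kernel]
  exact subst_mem_grp _ _ _

theorem my0 : g' 6 ∈ grp g (K0 ++ [[8]]) := by
  rw [g', show nth τ' [] 6 = subst (K0 ++ [[8]]) [5, 6, 2, 5, 1] from by decide +kernel]
  exact subst_mem_grp _ _ _

theorem D_cen : D ≤ Subgroup.centralizer {φ tH} := by
  have h0 : grp g (K0 ++ [[8]]) ≤ Subgroup.centralizer {φ tH} := by
    rw [grp_le_iff]
    intro w hw
    rw [Subgroup.mem_centralizer_singleton_iff]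
    rcases List.mem_append.1 hw with h | h
    · have e : S.w w * tH = tH * S.w w := Subtype.ext ((ev_append _ _ _).symm.trans
        ((CPoint.eq_of_eqQ hlk base (mem _) (mem _) (lall_iff.1 cmK w h)).trans (ev_append _ _ _)))
      have := congrArg φ e
      rwa [map_mul, map_mul, show φ (S.w w) = _ from hφ w,
        (by decide +kernel : ∀ w ∈ K0, subst gens w = w) w h] at this
    · rw [List.mem_singleton.1 h, show [8] = [2 * 4] from rfl, ev_gen, φt]
      have z2 : g 0 * g 0 = g 4 * g 4 := by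
        have := zz
        rwa [show [1, 1, 8, 8] = lapp (winv [2 * 0, 2 * 0]) [2 * 4, 2 * 4] from by decide +kernel, ev_lapp, ev_winv,
          inv_mul_eq_one, ev_cons g (2 * 4), ev_cons g (2 * 0), ev_gen, ev_gen, lv_even, lv_even] at this
      have e : g 0 ^ 4 = g 4 ^ 4 := by
        calc _ = g 0 * g 0 * (g 0 * g 0) := by simp [pow_succ, mul_assoc]
          _ = g 4 * g 4 * (g 4 * g 4) := by rw [z2]
          _ = _ := by simp [pow_succ, mul_assoc]
      rw [e, ← pow_succ, ← pow_succ']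
  refine D_le ?_ (h0 mx0) (h0 my0)
  rw [φt]; exact Subgroup.mem_centralizer_singleton_iff.2 rfl

theorem cover : Cfsg.IsNonsplitDoubleCover (Subgroup.centralizer {φ tH}) (alternatingGroup (Fin 11)) := by
  have m : ∀ w ∈ K0 ++ [[8], yw], ev g w ∈ Subgroup.centralizer {φ tH} := fun w hw => D_cen (mem_grp g hw)
  have mt : φ tH ∈ Subgroup.centralizer {φ tH} := Subgroup.mem_centralizer_singleton_iff.2 rfl
  have h0 : grp g (K0 ++ [[8]]) ≤ D := grp_mono g (by decide)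
  have mx : g' 5 ∈ Subgroup.centralizer {φ tH} :=
    D_cen (h0 mx0)
  have my : g' 6 ∈ Subgroup.centralizer {φ tH} :=
    D_cen (h0 my0)
  have zp : ∀ {c : Subgroup.centralizer {φ tH}} {w : Word}, w ++ [1, 1, 1, 1] ∈ NR → ev g' w = c →
      c ∈ Subgroup.zpowers (⟨_, mt⟩ : Subgroup.centralizer {φ tH}) := fun {c w} h e => by
    have := rel _ h
    rw [ev_append, ev_t, mul_inv_eq_one, e, ← φt] at this
    exact (Subtype.ext this : c = ⟨_, mt⟩) ▸ Subgroup.mem_zpowers _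
  refine cover_of (t := ⟨_, mt⟩) (a := ⟨g 0, ev_gen g 0 ▸ m [0] (by decide)⟩) (x := ⟨_, mx⟩) (y := ⟨_, my⟩)
    (Subgroup.mem_center_iff.2 fun c => Subtype.ext (Subgroup.mem_centralizer_singleton_iff.1 c.2))
    (by rw [← Subgroup.orderOf_coe, orderOf_injective φ φ_inj, ordH]) (Subtype.ext φt.symm)
    (zp (w := [10, 10, 10]) (by decide +kernel) (by simp [lv, pow_succ, mul_assoc])) ?_ (fun k hk => ?_) fun N ht h => ?_
  · have := rel [12, 12, 12, 12, 12, 12, 12, 12, 12] (by decide +kernel)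
    have e : (⟨_, my⟩ : Subgroup.centralizer {φ tH}) ^ 9 = 1 := Subtype.ext (by
      rw [Subgroup.coe_one, ← this]
      simp [lv, pow_succ, mul_assoc])
    exact e ▸ Subgroup.one_mem _
  · refine zp (w := (10 :: (List.replicate k 12 ++ 10 :: List.replicate k 13)) ++
      (10 :: (List.replicate k 12 ++ 10 :: List.replicate k 13))) ((by decide +kernel : ∀ k ∈ [1, 2, 3, 4],
      (10 :: (List.replicate k 12 ++ 10 :: List.replicate k 13)) ++
      (10 :: (List.replicate k 12 ++ 10 :: List.replicate k 13)) ++ [1, 1, 1, 1] ∈ NR) k hk) ?_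
    rw [ev_append, ev_cons, ev_YW]
    simp [lv, sq]
  · have k : ∀ i < 9, g' 6 ^ i * g' 5 * (g' 6 ^ i)⁻¹ ∈ N.map (Subgroup.subtype _) := fun i hi => ⟨_, h i hi, rfl⟩
    have := D_le (N := N.map (Subgroup.subtype _)) ⟨_, ht, φt⟩ (by simpa using k 0 (by decide)) (Y_mem k)
    refine eq_top_iff.2 fun c _ => ?_
    obtain ⟨c', a, b⟩ := this (cen_le (fun y hy => Subgroup.mem_centralizer_singleton_iff.1 (D_cen hy))
      (Subgroup.mem_centralizer_singleton_iff.1 c.2))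
    exact (Subtype.ext b : c' = c) ▸ a

end
end CA.H15Ly
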