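import Cfsg.Agent.Lib.Spor.CGLin2
import Cfsg.Agent.Lib.Spor.CGSim
import Cfsg.Agent.Lib.Grp.H7Lge
import Cfsg.Agent.Lib.Fus.FusAb

/-! Involution centralisers in computable groups. -/

set_option autoImplicit false
set_option linter.all false

namespace CA.H28Cz
open CA.NatBits CA.OrbBfs CA.CGroup CA.CGConstr CA.CGParts CA.CGCert CA.CGDec CA.CGIso CA.CGLin CA.CGSim CA.H28CG CA.H7Lge
open Cfsg MulAction Subgroup Matrix
open scoped commutatorElement

section
variable {E : Type*} [Group E] [Finite E] {p n : ℕ} [hp : Fact p.Prime]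

theorem quot_elem {g : ℕ → E} (hg : closure (Set.range g) = ⊤) {N : Subgroup E} [N.Normal]
    (h1 : ∀ i j, ⁅g i, g j⁆ ∈ N) (h2 : ∀ i, g i ^ p ∈ N) : (∀ x y : E, ⁅x, y⁆ ∈ N) ∧ ∀ x : E, x ^ p ∈ N := by
  let f := QuotientGroup.mk' N
  have k : ∀ x y, ⁅x, y⁆ ∈ N ↔ Commute (f x) (f y) := fun x y => by
    rw [← commutatorElement_eq_one_iff_commute, ← map_commutatorElement]; exact (QuotientGroup.eq_one_iff _).symm
  have c : ∀ x y, Commute (f x) (f y) := fun x y =>
    closure_induction₂ (p := fun x y _ _ => Commute (f x) (f y))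
      (by rintro _ _ ⟨i, rfl⟩ ⟨j, rfl⟩; exact (k _ _).1 (h1 i j)) (by simp) (by simp)
      (fun a b c _ _ _ h h' => by rw [map_mul]; exact h.mul_left h')
      (fun a b c _ _ _ h h' => by rw [map_mul]; exact h.mul_right h')
      (fun a b _ _ h => by rw [map_inv]; exact h.inv_left)
      (fun a b _ _ h => by rw [map_inv]; exact h.inv_right) (hg.ge (mem_top x)) (hg.ge (mem_top y))
  refine ⟨fun x y => (k x y).2 (c x y), fun x => (QuotientGroup.eq_one_iff _).1 (show f (x ^ p) = 1 from ?_)⟩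
  rw [map_pow]
  refine closure_induction (p := fun x _ => f x ^ p = 1) ?_ (by simp)
    (fun a b _ _ h h' => by rw [map_mul, (c a b).mul_pow, h, h', one_mul])
    (fun a _ h => by rw [map_inv, inv_pow, h, inv_one]) (hg.ge (mem_top x))
  rintro _ ⟨i, rfl⟩
  rw [← map_pow]; exact (QuotientGroup.eq_one_iff _).2 (h2 i)

/-- `g 0` is central, and `g (2k+1), g (2k+2)` are hyperbolic pairs -/
theorem extra_top {g : ℕ → E} (hg : closure (Set.range g) = ⊤) (hn : 0 < n) (h0 : ∀ i, 2 * n < i → g i = 1)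
    (hz : orderOf (g 0) = p) (h1 : ∀ i ≤ 2 * n, ∀ j < i, ⁅g j, g i⁆ = if j % 2 = 1 ∧ i = j + 1 then g 0 else 1)
    (h2 : ∀ i, g i ^ p ∈ zpowers (g 0)) :
    IsExtraspecial p E ∧ Nat.card E = p ^ (2 * n + 1) ∧ center E = zpowers (g 0) := by
  have c0 : ∀ i, Commute (g 0) (g i) := fun i => by
    rcases Nat.eq_zero_or_pos i with rfl | hi
    · exact Commute.refl _
    rcases Nat.lt_or_ge (2 * n) i with h | h
    · rw [h0 i h]; exact Commute.one_right _
    · exact commutatorElement_eq_one_iff_commute.1 ((h1 i h 0 hi).trans (if_neg (by omega)))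
  have hc : g 0 ∈ center E := by
    rw [← centralizer_univ, ← coe_top, ← hg, centralizer_closure]
    rintro _ ⟨i, rfl⟩; exact (c0 i).symm
  have : (zpowers (g 0)).Normal := ⟨fun x hx y => by
    rwa [mem_center_iff.1 (zpowers_le.2 hc hx) y, mul_inv_cancel_right]⟩
  have lt : ∀ i j, j < i → ⁅g j, g i⁆ ∈ zpowers (g 0) := fun i j h => by
    rcases Nat.lt_or_ge (2 * n) i with h' | h'
    · rw [h0 i h']; simp
    · rw [h1 i h' j h]; split_ifs <;> simp
  obtain ⟨h3, h4⟩ := quot_elem (p := p) hg (N := zpowers (g 0)) (fun i j => by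
    rcases lt_trichotomy i j with h | rfl | h
    · exact lt _ _ h
    · simp
    · rw [← commutatorElement_inv]; exact inv_mem (lt _ _ h)) h2
  obtain ⟨m, c, hζ⟩ := H7Ext.exists_cov hz hc h3 h4
  have b1 : ∀ i ≤ 2 * n, ∀ j < i, c.b (c.π (g j)) (c.π (g i)) = if j % 2 = 1 ∧ i = j + 1 then 1 else 0 :=
    fun i hi j hj => c.inj (by rw [c.ζ_b, h1 i hi j hj]; split_ifs; exacts [hζ.symm, c.ζ_zero.symm])
  let v : Fin (2 * n) → Fin m → ZMod p := fun i => c.π (g (i + 1))
  let w : Fin (2 * n) → Fin m → ZMod p := fun i => if i.1 % 2 = 0 then c.π (g (i + 2)) else -c.π (g i)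
  have hB : ∀ u v, c.B u v = c.b u v := fun _ _ => rfl
  have d : ∀ i j, c.B (v j) (w i) = if i = j then 1 else 0 := fun i j => by
    have hi := i.2; have hj := j.2
    simp only [v, w, Fin.ext_iff]
    split_ifs with e1 e2 e2
    · rw [hB, b1 _ (by omega) _ (by omega), if_pos (by omega)]
    · rw [hB]
      rcases lt_trichotomy (j.1 + 1) (i + 2) with h | h | h
      · rw [b1 _ (by omega) _ h, if_neg (by omega)]
      · rw [h, c.b_self]
      · rw [c.b_symm, b1 _ (by omega) _ h, if_neg (by omega), neg_zero]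
    · rw [map_neg, hB, c.b_symm, neg_neg, b1 _ (by omega) _ (by omega), if_pos (by omega)]
    · rw [map_neg, hB, neg_eq_zero]
      rcases lt_trichotomy (j.1 + 1) i with h | h | h
      · rw [b1 _ (by omega) _ h, if_neg (by omega)]
      · rw [h, c.b_self]
      · rw [c.b_symm, b1 _ (by omega) _ h, if_neg (by omega), neg_zero]
  have li : LinearIndependent (ZMod p) v := LinearIndependent.of_pairwise_dual_eq_zero_one v (fun i => c.B.flip (w i))
    (fun i j h => (d i j).trans (if_neg h)) fun i => (d i i).trans (if_pos rfl)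
  have sp : ⊤ ≤ Submodule.span (ZMod p) (Set.range v) := fun u _ => by
    obtain ⟨x, rfl⟩ := c.surj u
    refine closure_induction (p := fun x _ => c.π x ∈ Submodule.span (ZMod p) (Set.range v)) ?_
      (c.π_one ▸ zero_mem _) (fun a b _ _ h h' => c.π_mul a b ▸ add_mem h h')
      (fun a _ h => c.π_inv a ▸ neg_mem h) (hg.ge (mem_top x))
    rintro _ ⟨i, rfl⟩
    rcases i with _ | i
    · rw [← hζ, c.π_ζ]; exact zero_mem _
    rcases Nat.lt_or_ge i (2 * n) with h | h
    · exact Submodule.subset_span ⟨⟨i, h⟩, rfl⟩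
    · rw [h0 _ (by omega), c.π_one]; exact zero_mem _
  have hZ := c.nondeg_iff.1 fun u hu => by
    obtain ⟨a, rfl⟩ := (Submodule.mem_span_range_iff_exists_fun _).1 (sp (Submodule.mem_top (x := u)))
    refine Finset.sum_eq_zero fun i _ => ?_
    have := hu (w i)
    rw [← hB, map_sum, LinearMap.sum_apply] at this
    simp only [map_smul, LinearMap.smul_apply, d, smul_eq_mul, mul_ite, mul_one, mul_zero, Finset.sum_ite_eq,
      Finset.mem_univ, if_true] at this
    rw [this, zero_smul]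
  have hr := Module.finrank_eq_card_basis (Module.Basis.mk li sp)
  rw [Fintype.card_fin] at hr
  exact ⟨c.extra hZ (Module.nontrivial_of_finrank_pos (R := ZMod p) (by omega)), by rw [c.card_eq', hr], hζ ▸ hZ⟩

end

variable {D : Type*} [Group D] [Finite D] {G : CG D} {X : Type*} [MulAction D X]
  (hi : ∀ {c d : ℕ} {x : D}, G.R c x → G.R d x → c = d)

/-- `z` fixes `c` and `m` points of its orbit -/
noncomputable def fxOK (act : ℕ → ℕ → ℕ) (l : List ℕ) (c cz n m : ℕ) : Bool :=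
  Nat.beq (act cz c) c && orb act l c fun t k => Nat.beq k n && Nat.beq (t.cnt fun d => Nat.beq (act cz d) d) m

theorem cent_fix (A : CAct G X) {K : Subgroup D} {l : List ℕ} (hl : G.In l K) {Y : Set X} (hf : Y.Finite) (hY : Inv K Y)
    {c cz n m M : ℕ} (hn : Y.ncard = n) {x : X} (hx : A.S c x) (hxY : x ∈ Y) {z : D} (hz : G.R cz z)
    (h : fxOK A.act l c cz n m = true) (hM : Nat.card ↥(K ⊓ stabilizer D x ⊓ stabilizer D (toCj z)) ≤ M) :
    Nat.card ↥(K ⊓ stabilizer D (toCj z)) ≤ m * M := by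
  simp only [fxOK, Bool.and_eq_true, beq_iff] at h
  obtain ⟨t, k, h1, h2⟩ := orb_spec hl.ok hx h.2
  simp only [Bool.and_eq_true, beq_iff] at h1
  have h3 := card_cent_le (y := z) hf hY hxY (A.S_fun (h.1 ▸ A.S_act hz hx) hx)
  rw [← Set.eq_of_subset_of_ncard_le (s := orbit (G.gen l) x) (by
    rintro _ ⟨g, rfl⟩; exact hY _ (hl.gen_le g.2) _ hxY) (by rw [hn, h2.ncard, h1.1]) hf,
    CGDec.IsOrb.ncard_fix h2 hz, h1.2, ← stabilizer_toCj] at h3
  exact h3.trans (Nat.mul_le_mul_left m hM)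

include hi in
theorem cent_cls {K : Subgroup D} {l : List ℕ} (hl : G.In l K) {cz n M : ℕ} {z : D} (hz : G.R cz z) (hn : 0 < n)
    (hM : Nat.card K = n * M) (h : orb (cjG G.mul G.inv) l cz (fun _ k => Nat.beq k n) = true) :
    Nat.card ↥(K ⊓ stabilizer D (toCj z)) ≤ M :=
  card_stab_le hM.le (le_ncard_orbit (A := cjAct G _ R_cjG hi) hl hz h) hn

include hi in
theorem in_cent {K : Subgroup D} {l : List ℕ} (hl : G.In l K) {cz : ℕ} {z : D} (hz : G.R cz z)
    (h : allL l (fun a => Nat.beq (G.mul a cz) (G.mul cz a)) = true) : G.In l (K ⊓ stabilizer D (toCj z)) := fun c hc => by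
  obtain ⟨g, hg, r⟩ := hl c hc
  refine ⟨g, ⟨hg, ?_⟩, r⟩
  rw [stabilizer_toCj]
  exact mem_centralizer_singleton_iff.2 (G.R_fun (G.R_mul r hz) (beq_iff.1 (allL_iff.1 h c hc) ▸ G.R_mul hz r))

theorem sg_low (A : CAct G X) {K : Subgroup D} {l : List ℕ} (hl : G.In l K) {N : ℕ} (hN : Nat.card K ≤ N)
    {L : List (ℕ × List (List ℕ))} (hb : ∀ c ∈ L.map Prod.fst, ∃ x, A.S c x)
    (h : lowc A.act G.mul G.inv G.one L l N = true) : Sg G l K N :=
  ⟨hl.ok, gen_eq_of_lowc hb hl hN h, le_antisymm hN (le_card_of_lowc hb hl h)⟩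

/-- a central involution followed by hyperbolic pairs -/
noncomputable def exG (mul : ℕ → ℕ → ℕ) (one : ℕ) (l : List ℕ) (n : ℕ) : Bool :=
  force (nth one l 0) fun z => Nat.beq l.length (Nat.succ (Nat.mul 2 n)) && !(Nat.beq z one) && Nat.beq (mul z z) one &&
    allLt (Nat.succ (Nat.mul 2 n)) fun i => force (nth one l i) fun x =>
      (force (mul x x) fun y => Nat.beq y one || Nat.beq y z) && allLt i fun j => force (nth one l j) fun y =>
        force (mul x y) fun u => Nat.beq (mul y x) (if j % 2 = 1 ∧ i = j + 1 then mul z u else u)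

theorem nth_spec (d : ℕ) (l : List ℕ) : (∀ i, l.length ≤ i → nth d l i = d) ∧ ∀ c ∈ l, ∃ i, nth d l i = c := by
  induction l with
  | nil => exact ⟨fun _ _ => rfl, by simp⟩
  | cons a l ih =>
    refine ⟨fun i h => ?_, List.forall_mem_cons.2 ⟨⟨0, rfl⟩, fun c hc => (ih.2 c hc).elim fun i h => ⟨i + 1, h⟩⟩⟩
    cases i with
    | zero => simp at h
    | succ i => exact ih.1 i (by simpa using h)

include hi in
theorem ex_gen {l : List ℕ} (hl : G.Ok l) {n : ℕ} (hn : 0 < n) (h : exG G.mul G.one l n = true) :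
    IsExtraspecial 2 (G.gen l) ∧ Nat.card (G.gen l) = 2 ^ (2 * n + 1) := by
  simp only [exG, force_eq, Bool.and_eq_true, beq_iff, allLt_iff, Bool.or_eq_true, Bool.not_eq_true'] at h
  obtain ⟨⟨⟨h1, h2⟩, h3⟩, h4⟩ := h
  have : ∀ i, ∃ g ∈ G.gen l, G.R (nth G.one l i) g := fun i =>
    (nth_mem G.one l i).elim (fun e => ⟨1, one_mem _, by rw [e]; exact G.R_one⟩) (hl.in_gen _)
  choose γ hγ r using this
  have o : ∀ {c}, c = G.one → G.R c 1 := fun e => e ▸ G.R_one
  have h0 : ∀ i, 2 * n < i → γ i = 1 := fun i h => G.R_fun (r i) (o ((nth_spec _ l).1 i (h1.trans_le h)))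
  have hz : γ 0 * γ 0 = 1 := G.R_fun (G.R_mul (r 0) (r 0)) (o h3)
  have hB : G.gen l = closure (Set.range γ) := le_antisymm ((closure_le _).2 (by
      rintro g ⟨c, hc, e⟩
      obtain ⟨i, rfl⟩ := (nth_spec G.one l).2 c hc
      exact subset_closure ⟨i, G.R_fun (r i) e⟩)) ((closure_le _).2 (by rintro _ ⟨i, rfl⟩; exact hγ i))
  obtain ⟨a, b, -⟩ := extra_top (p := 2) (n := n) (g := fun i => (⟨γ i, hγ i⟩ : G.gen l))
    (by
      apply Subgroup.map_injective (G.gen l).subtype_injective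
      rw [MonoidHom.map_closure, ← MonoidHom.range_eq_map, Subgroup.range_subtype, ← Set.range_comp]
      exact hB.symm) hn
    (fun i h => Subtype.ext (h0 i h))
    (orderOf_eq_prime (Subtype.ext ((sq _).trans hz)) fun e => by
      have e' : γ 0 = 1 := congrArg Subtype.val e
      rw [hi (r 0) (by rw [e']; exact G.R_one), Nat.beq_refl] at h2; cases h2)
    (fun i h j hj => Subtype.ext (by
      have := (h4 i (Nat.lt_succ_of_le h)).2 j hj
      show ⁅γ j, γ i⁆ = _
      rw [commutatorElement_def, mul_inv_eq_iff_eq_mul, mul_inv_eq_iff_eq_mul, mul_assoc]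
      split_ifs at this ⊢
      · exact G.R_fun (G.R_mul (r j) (r i)) (this ▸ G.R_mul (r 0) (G.R_mul (r i) (r j)))
      · exact (G.R_fun (G.R_mul (r j) (r i)) (this ▸ G.R_mul (r i) (r j))).trans (one_mul _).symm))
    fun i => (mem_two (Subtype.ext hz)).2 (by
      rcases Nat.lt_or_ge (2 * n) i with h | h
      · exact .inl (Subtype.ext (show γ i ^ 2 = 1 by rw [h0 i h, one_pow]))
      · exact (h4 i (Nat.lt_succ_of_le h)).1.elim
          (fun e => .inl (Subtype.ext ((sq _).trans (G.R_fun (G.R_mul (r i) (r i)) (o e)))))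
          fun e => .inr (Subtype.ext ((sq _).trans (G.R_fun (G.R_mul (r i) (r i)) (by rw [e]; exact r 0)))))
  exact ⟨a, b⟩

theorem label_Sp {F ι : Type*} [Field F] [Finite F] [Fintype ι] [DecidableEq ι] (A : CAct G X) (cx : (ι ⊕ ι → F) → ℕ)
    (hc : ∀ u v, u ≠ 0 → v ≠ 0 → cx u = cx v → u = v)
    (hx : ∀ v, v ≠ 0 → ∃ y, A.S (cx v) y) {K : Subgroup D} {l : List ℕ} (hl : G.Ok l) (e : G.gen l = K)
    (ms : List (Matrix (ι ⊕ ι) (ι ⊕ ι) F))
    (h : List.Forall₂ (fun c m => m * J ι F * mᵀ = J ι F ∧ ∀ v, v ≠ 0 → A.act c (cx v) = cx (m *ᵥ v)) l ms)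
    (L : List (ℕ × List (List ℕ))) (hL : ∀ c ∈ L.map Prod.fst, ∃ v, v ≠ 0 ∧ cx v = c) (v0 : ι ⊕ ι → F) (h0 : v0 ≠ 0)
    {N : ℕ} (hN : Nat.card (symplecticGroup ι F) = N) (hlow : lowc A.act G.mul G.inv G.one L l N = true) :
    ∃ φ : K →* symplecticGroup ι F, Function.Surjective φ ∧
      ∀ g : K, φ g = 1 ↔ ∀ v, v ≠ 0 → ∀ y, A.S (cx v) y → (g : D) • y = y := by
  letI : DistribMulAction (symplecticGroup ι F) (ι ⊕ ι → F) :=
    { smul := fun g v => g.1 *ᵥ v, one_smul := one_mulVec, mul_smul := fun a b v => (mulVec_mulVec v a.1 b.1).symm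
      smul_zero := fun a => mulVec_zero a.1, smul_add := fun a => mulVec_add a.1 }
  have hP : ∀ (γ : symplecticGroup ι F) (v : ι ⊕ ι → F), v ≠ 0 → γ • v ≠ 0 := fun γ v hv => (smul_ne_zero_iff_ne γ).2 hv
  refine label' A (MonoidHom.id _) (fun v : ι ⊕ ι → F => v ≠ 0) hP cx hx (fun γ => ⟨fun h v _ => by
    rw [show γ = 1 from h, one_smul], fun h => Subtype.ext (Matrix.ext_iff_mulVec.2 fun v => ?_)⟩) hl e (fun c hc => ?_)
    L hL v0 h0 hN hlow
  · by_cases hv : v = 0
    · simp [hv]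
    · exact (hc _ _ (hP γ v hv) hv (h v hv)).trans (one_mulVec v).symm
  · obtain ⟨m, h1, h2⟩ := exists_of_forall₂ h c hc
    exact ⟨⟨m, SymplecticGroup.mem_iff.2 h1⟩, h2⟩

omit [Finite D] in
theorem cent_equiv {Γ : Type*} [Group Γ] {K : Subgroup D} (e : K ≃* Γ) (x : K) :
    Nonempty (centralizer {e x} ≃* ↥(K ⊓ stabilizer D (toCj (x : D)))) := by
  have h : (centralizer {x}).map (e : K →* Γ) = centralizer {e x} := by
    ext y
    obtain ⟨x, rfl⟩ := e.surjective y
    rw [mem_centralizer_singleton_iff, ← map_mul, ← map_mul, e.apply_eq_iff_eq, ← mem_centralizer_singleton_iff]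
    exact mem_map_iff_mem (f := (e : K →* Γ)) e.injective
  exact ⟨((e.subgroupMap _).trans (MulEquiv.subgroupCongr h)).symm.trans (CA.CGLin2.cent_sub x).some⟩

omit [Finite D] in
theorem ker_equiv {C Γ : Type*} [Group C] [Group Γ] (e : C ≃* D) (φ : D →* Γ) : Nonempty ((φ.comp e.toMonoidHom).ker ≃* φ.ker) :=
  ⟨(e.subgroupMap _).trans (MulEquiv.subgroupCongr (by
    rw [← MonoidHom.comap_ker]; exact map_comap_eq_self_of_surjective e.surjective _))⟩

theorem pCore_eq_ker {Γ : Type*} [Group Γ] [IsSimpleGroup Γ] {p : ℕ} [Fact p.Prime] (h : ¬ IsPGroup p Γ) {φ : D →* Γ}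
    (hφ : Function.Surjective φ) (hk : IsPGroup p φ.ker) : pCore p D = φ.ker := by
  haveI := Finite.of_surjective φ hφ
  rw [← CA.Core.comap_pCore φ hφ hk, CA.Core.pCore_eq_bot_iff.2 fun N hN hp => hN.eq_bot_or_eq_top.resolve_right fun e =>
    h ((e ▸ hp :).of_equiv topEquiv)]
  rfl

/-- the kernel from a subgroup of the right order -/
theorem ker_eq {Γ : Type*} [Group Γ] {K Q : Subgroup D} (hQ : Q ≤ K) {φ : K →* Γ} (h : Q.subgroupOf K ≤ φ.ker)
    (hc : Nat.card φ.ker ≤ Nat.card Q) : Nonempty (φ.ker ≃* Q) :=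
  ⟨(MulEquiv.subgroupCongr (eq_of_le_of_card_ge h (by rwa [card_subgroupOf hQ])).symm).trans (subgroupOfEquivOfLe hQ)⟩

end CA.H28Cz
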