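import Cfsg.Agent.Lib.Spor.H28Cz
import Cfsg.Prelude.Def_SporadicB

/-! One class of involutions; double covers; sets of objects. -/

set_option autoImplicit false
set_option linter.all false

namespace CA.H28Cz
open CA.NatBits CA.OrbBfs CA.CGroup CA.CGConstr CA.CGParts CA.CGCert CA.CGDec CA.CGIso CA.CGSim CA.H28CG
open Cfsg MulAction Subgroup

variable {D : Type*} [Group D] [Finite D] {G : CG D} {X : Type*} [MulAction D X]
  (hi : ∀ {c d : ℕ} {x : D}, G.R c x → G.R d x → c = d)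

/-- `c` is trivial or conjugate to `cz` by a word selected by a hash of `c` -/
noncomputable def ocF (mul : ℕ → ℕ → ℕ) (inv : ℕ → ℕ) (one : ℕ) (lA : List ℕ) (cz : ℕ) (tab : List (ℕ × List ℕ)) (c : ℕ) : Bool :=
  Nat.beq c one || force (Nat.mod c 1000003) fun r => tab.any fun p => Nat.beq r p.1 &&
    force (evalW mul inv one lA p.2) fun h => Nat.beq (mul h c) (mul cz h)

include hi in
theorem one_class {K : Subgroup D} {lP lA : List ℕ} (hP : G.In lP K) (hA : G.In lA K) {p : ℕ} (hp : p.Prime) (a m : ℕ)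
    (hK : Nat.card K = p ^ a * m) (hm : ¬ p ∣ m) {cz : ℕ} {z : D} (hz : G.R cz z) (tab : List (ℕ × List ℕ))
    (h : orb G.mul lP G.one (fun t n => Nat.beq n (p ^ a) && t.all fun c _ =>
      !(Nat.beq (powC G.mul G.one c (p ^ 1)) G.one) || ocF G.mul G.inv G.one lA cz tab c) = true)
    {g : D} (hg : g ∈ K) (he : orderOf g = p) : ∃ k ∈ K, k * g * k⁻¹ = z := by
  obtain ⟨k, hk, c, r, h1⟩ := CA.CGLin2.syl_all hi hP hp a m 1 hK hm _ h hg (by rw [pow_one, ← he, pow_orderOf_eq_one])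
  simp only [ocF, force_eq, Bool.or_eq_true, List.any_eq_true, Bool.and_eq_true, beq_iff] at h1
  rcases h1 with e | ⟨q, -, -, e⟩
  · have : k * g * k⁻¹ = 1 := G.R_fun r (by rw [e]; exact G.R_one)
    rw [conj_eq_one_iff.1 this, orderOf_one] at he
    exact absurd he.symm hp.ne_one
  · obtain ⟨u, hu, r'⟩ := evalW_mem hA q.2
    have := G.R_fun (G.R_mul r' r) (e ▸ G.R_mul hz r')
    exact ⟨u * k, mul_mem hu hk, by rw [_root_.mul_inv_rev, ← mul_inv_eq_iff_eq_mul.2 this]; group⟩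

theorem dc_sq {H K : Type*} [Group H] [Group K] (σ : H →* K) (hs : Function.Surjective σ) (hK : center K = ⊥)
    (h2 : Nat.card σ.ker = 2) {x : H} (hx : σ (x * x) = 1) (hx1 : x * x ≠ 1) : IsNonsplitDoubleCover H K := by
  have h3 : center H = σ.ker := le_antisymm (fun z hz => by
    have : σ z ∈ center K := mem_center_iff.2 fun k => by
      obtain ⟨x, rfl⟩ := hs k
      rw [← map_mul, mem_center_iff.1 hz, map_mul]
    rwa [hK] at this) fun k hk => mem_center_iff.2 fun g => by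
      obtain ⟨y, -, hy⟩ := (Nat.card_eq_two_iff' (1 : σ.ker)).1 h2
      by_cases e : k = 1
      · simp [e]
      exact mul_inv_eq_iff_eq_mul.1 (congrArg Subtype.val ((hy ⟨g * k * g⁻¹, σ.normal_ker.conj_mem k hk g⟩ fun h =>
        e (conj_eq_one_iff.1 (congrArg Subtype.val h))).trans (hy ⟨k, hk⟩ fun h => e (congrArg Subtype.val h)).symm))
  refine ⟨h3 ▸ h2, ⟨(QuotientGroup.quotientMulEquivOfEq h3).trans
    (QuotientGroup.quotientKerEquivOfSurjective σ hs)⟩, fun L hL => hx1 ?_⟩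
  exact disjoint_def.1 hL.disjoint (h3.ge hx) (mul_self_mem_of_index_two (hL.index_eq_card.trans (h3 ▸ h2)) x)

open Pointwise in
omit [Finite D] in
theorem set_ex [DecidableEq X] (A : CAct G X) {K : ℕ} (hK : ∀ c x, A.S c x → c < 2 ^ K) {k : ℕ} {l : List ℕ}
    (hk : l.length = k) (h : l.Pairwise (· < ·)) (hx : ∀ c ∈ l, ∃ x, A.S c x) : ∃ s, (setAct A K k hK).S (pack K l) s := by
  choose x hx' using hx
  refine ⟨l.attach.toFinset.image fun c => x c.1 c.2, l, hk, h, rfl, fun c hc => ⟨_, hx' c hc⟩, fun y => ?_⟩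
  simp only [Finset.mem_image, List.mem_toFinset, List.mem_attach, true_and, Subtype.exists]
  exact ⟨fun ⟨c, hc, e⟩ => ⟨c, hc, e ▸ hx' c hc⟩, fun ⟨c, hc, e⟩ => ⟨c, hc, A.S_fun (hx' c hc) e⟩⟩

/-- a permutation representation of index two -/
theorem alt_of_range {n : ℕ} (φ : D →* Equiv.Perm (Fin n)) {N m : ℕ} (hN : 2 * N = n.factorial) (h : N ≤ Nat.card φ.range)
    (hD : Nat.card D = N * m) (hm : m ≤ Nat.card φ.ker) :
    ∃ ψ : D →* alternatingGroup (Fin n), Function.Surjective ψ ∧ ψ.ker = φ.ker ∧ Nat.card φ.ker = m := by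
  have h7 := card_ker_mul φ
  have h0 : 0 < N * m := hD ▸ Nat.card_pos
  have h8 : Nat.card φ.ker = m := by nlinarith [Nat.pos_of_mul_pos_left h0, Nat.pos_of_mul_pos_right h0]
  have h9 : φ.range = alternatingGroup (Fin n) := Equiv.Perm.eq_alternatingGroup_of_index_eq_two (by
    have := φ.range.index_mul_card
    rw [h8, hD] at h7
    rw [Nat.card_perm, Nat.card_fin, ← Nat.eq_of_mul_eq_mul_right (Nat.pos_of_mul_pos_left h0) h7, ← hN] at this
    exact Nat.eq_of_mul_eq_mul_right (Nat.pos_of_mul_pos_right h0) this)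
  refine ⟨φ.codRestrict _ fun g => h9 ▸ ⟨g, rfl⟩, fun ⟨a, ha⟩ => ?_, MonoidHom.ker_codRestrict _ _ _, h8⟩
  obtain ⟨g, rfl⟩ : a ∈ φ.range := h9 ▸ ha
  exact ⟨g, rfl⟩

end CA.H28Cz
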