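import Cfsg.Agent.Lib.Comp.CWord

/-! A power-commutator presentation of a group of order 256. -/

set_option autoImplicit false

namespace CA.LyF

/-- the value of a positive word -/
def pv {G : Type*} [Monoid G] (x : ℕ → G) (w : List ℕ) : G := (w.map x).prod
def rA : List (List ℕ × List ℕ) := [([0, 0], []), ([1, 0], [0, 1, 7]), ([2, 0], [0, 2, 3]), ([3, 0], [0, 3, 6]), ([4, 0], [0, 5, 4]), ([5, 0], [0, 5, 7]), ([6, 0], [0, 6]), ([7, 0], [0, 7]), ([1, 1], []), ([2, 1], [1, 2, 4]), ([3, 1], [1, 3, 5, 6]), ([4, 1], [1, 4]), ([5, 1], [1, 5])]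
def rB : List (List ℕ × List ℕ) := [([6, 1], [1, 6, 7]), ([7, 1], [1, 7]), ([2, 2], []), ([3, 2], [2, 3, 6]), ([4, 2], [2, 4]), ([5, 2], [2, 5, 6, 7]), ([6, 2], [2, 6]), ([7, 2], [2, 7]), ([3, 3], [6]), ([4, 3], [3, 4, 6, 7]), ([5, 3], [3, 5]), ([6, 3], [3, 6]), ([7, 3], [3, 7]), ([4, 4], []), ([5, 4], [4, 5, 7]), ([6, 4], [4, 6]), ([7, 4], [4, 7]), ([5, 5], [7]), ([6, 5], [5, 6]), ([7, 5], [5, 7]), ([6, 6], []), ([7, 6], [6, 7]), ([7, 7], [])]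
def rels : List (List ℕ × List ℕ) := rA ++ rB

end CA.LyF
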