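import Cfsg.Agent.Lib.Spor.LyF1

set_option autoImplicit false
set_option linter.all false
set_option maxRecDepth 100000
set_option Elab.async false

namespace CA.LyF

open CA.CNet CA.CWord CA.CMat CA.PkM CA.PkW

theorem hA : lall rA relE = true := by decide +kernel

end CA.LyF
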