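import Cfsg.Agent.Lib.Spor.LyF1

set_option autoImplicit false
set_option linter.all false
set_option maxRecDepth 100000
set_option Elab.async false

namespace CA.LyF

open CA.CNet CA.CWord CA.CMat CA.PkM CA.PkW

theorem dZ : eqOK [0, 0, 0, 0] [17] = true := by decide +kernel
theorem d0 : eqOK ([5, 5, 6, 4, 4, 7, 0, 4, 6, 5] ++ [10]) ([17] ++ [5, 5, 6, 4, 4, 7, 0, 4, 6, 5]) = true := by decide +kernel
theorem d1 : eqOK ([9, 6] ++ [11]) ([10] ++ [9, 6]) = true := by decide +kernel
theorem d2 : eqOK ([9, 2, 2] ++ [12]) ([10] ++ [9, 2, 2]) = true := by decide +kernel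
theorem d3 : eqOK [12, 10, 12, 10] [13] = true := by decide +kernel
theorem d4 : eqOK [11, 12, 11, 12] [14] = true := by decide +kernel
theorem d5 : eqOK [10, 14, 10, 14] [15] = true := by decide +kernel
theorem d6 : eqOK [13, 13] [16] = true := by decide +kernel

end CA.LyF
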