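import Cfsg.Agent.Lib.Spor.LyF5

/-! A finite group whose Sylow 2-subgroup is the group of `LyF0`, with the three generators fused to the central
involution, has a simple 2-fusion system. -/

set_option autoImplicit false
set_option maxRecDepth 100000

namespace CA.LyF
open CA.CWord Subgroup Equiv CA.FusCrit
open scoped Pointwise

def par (b0 b1 b2 : Bool) (w : List ℕ) : Bool := w.foldr (fun a r => xor ([b0, b1, b2].getD a false) r) false
def tab : Bool → Bool → Bool → ℕ
  | false, false, false => 0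
  | false, false, true => 16
  | false, true, false => 16
  | false, true, true => 32
  | true, false, false => 24
  | true, false, true => 40
  | true, true, false => 24
  | true, true, true => 40
theorem cnt : ∀ b0 b1 b2 : Bool, (Finset.univ.filter fun e : Fin 256 => par b0 b1 b2 (nf e) = true ∧
    act (ex (nf e ++ nf e)) 0 = act (ex []) 0).card = tab b0 b1 b2 := by decide +kernel
set_option synthInstance.maxSize 1000 in
theorem fib : ∀ a0 a1 a2 b0 b1 b2 c0 c1 c2 : Bool, tab a0 a1 a2 = tab b0 b1 b2 → tab b0 b1 b2 = tab c0 c1 c2 →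
    (a0 = b0 ∧ a1 = b1 ∧ a2 = b2) ∨ (b0 = c0 ∧ b1 = c1 ∧ b2 = c2) ∨ (a0 = c0 ∧ a1 = c1 ∧ a2 = c2) := by decide +kernel

open Classical in
theorem par_spec {Q : Type*} [Group Q] (y : ℕ → Q) (M : Subgroup Q) (hM : M.index = 2) (w : List ℕ) (hw : ∀ i ∈ w, i < 3) :
    pv y w ∉ M ↔ par (decide (y 0 ∉ M)) (decide (y 1 ∉ M)) (decide (y 2 ∉ M)) w = true := by
  induction w with
  | nil => simp [pv, par]
  | cons a w ih =>
    have h1 := ih fun i hi => hw i (List.mem_cons_of_mem _ hi)
    have h2 : a < 3 := hw a List.mem_cons_self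
    have h3 : [decide (y 0 ∉ M), decide (y 1 ∉ M), decide (y 2 ∉ M)].getD a false = decide (y a ∉ M) := by
      interval_cases a <;> rfl
    rw [pv_cons, mul_mem_iff_of_index_two hM, par, List.foldr_cons, ← par, h3]
    generalize par _ _ _ w = b at h1
    cases b <;> by_cases h4 : y a ∈ M <;> simp_all

theorem autfix {Q : Type*} [Group Q] (y : ℕ → Q) (hb : Function.Bijective fun e => pv y (nf e))
    (hs : ∀ e, pv y (nf e) * pv y (nf e) = 1 ↔ act (ex (nf e ++ nf e)) 0 = act (ex []) 0) (β : MulAut Q) (n : ℕ)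
    (hβ : β ^ (2 * n + 1) = 1) (M : Subgroup Q) (hM : M.index = 2) : β • M = M := by
  classical
  have c : ∀ M : Subgroup Q, M.index = 2 → Nat.card {g // g ∉ M ∧ g * g = 1} =
      tab (decide (y 0 ∉ M)) (decide (y 1 ∉ M)) (decide (y 2 ∉ M)) := fun M hM => by
    rw [← cnt, ← Fintype.card_subtype, ← Nat.card_eq_fintype_card]
    exact (Nat.card_congr (Equiv.subtypeEquiv (Equiv.ofBijective _ hb) fun e =>
      and_congr (par_spec y M hM _ (nf_lt e)).symm (hs e).symm)).symm
  have i : ∀ M : Subgroup Q, M.index = 2 → (β • M).index = 2 := fun M hM =>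
    (index_map_of_bijective (f := MulDistribMulAction.toMonoidEnd _ _ β) β.bijective M).trans hM
  have c' : ∀ M : Subgroup Q, Nat.card {g // g ∉ M ∧ g * g = 1} = Nat.card {g // g ∉ β • M ∧ g * g = 1} := fun M =>
    Nat.card_congr (Equiv.subtypeEquiv β.toEquiv fun g => and_congr
      (not_congr (smul_mem_pointwise_smul_iff (a := β)).symm)
      (by show _ ↔ β g * β g = 1; rw [← map_mul, β.map_eq_one_iff]))
  have u : ∀ M N : Subgroup Q, M.index = 2 → N.index = 2 → (decide (y 0 ∉ M) = decide (y 0 ∉ N) ∧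
      decide (y 1 ∉ M) = decide (y 1 ∉ N) ∧ decide (y 2 ∉ M) = decide (y 2 ∉ N)) → M = N := fun M N hM hN h =>
    Subgroup.ext fun g => by
      obtain ⟨e, rfl⟩ := hb.2 g
      rw [← not_iff_not, par_spec y M hM _ (nf_lt e), par_spec y N hN _ (nf_lt e), h.1, h.2.1, h.2.2]
  rcases fib _ _ _ _ _ _ _ _ _ ((c M hM).symm.trans ((c' M).trans (c _ (i M hM))))
    ((c _ (i M hM)).symm.trans ((c' _).trans (c _ (i _ (i M hM))))) with h | h | h
  · exact (u _ _ hM (i M hM) h).symm
  · exact (smul_left_cancel β (u _ _ (i M hM) (i _ (i M hM)) h)).symm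
  · have h1 : β ^ 2 ∈ MulAction.stabilizer (MulAut Q) M := by
      rw [MulAction.mem_stabilizer_iff, sq, mul_smul]; exact (u _ _ hM (i _ (i M hM)) h).symm
    have h2 := pow_mem h1 (n + 1)
    rwa [← pow_mul, show 2 * (n + 1) = 2 * n + 1 + 1 by ring, pow_succ, hβ, one_mul] at h2

theorem crit {G : Type*} [Group G] [Finite G] {x : ℕ → G} (hr : ∀ p ∈ rels, pv x p.1 = pv x p.2) (h7 : x 7 ≠ 1)
    (hc : ∀ i < 3, IsConj (x 7) (x i)) {m : ℕ} (hG : Nat.card G = 2 ^ 8 * m) (hm : ¬ 2 ∣ m) {Γ : Type*} [Group Γ]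
    (φ : G ≃* Γ) (S : Sylow 2 Γ) : (Cfsg.groupFusionSystem (S : Subgroup Γ)).IsSimple 2 := by
  classical
  obtain ⟨P, hP, hx, hw, k⟩ := model hr h7
  have h2 : IsPGroup 2 P := IsPGroup.of_card hP
  have l := fun e i (hi : i ∈ nf e) => (nf_lt e i hi).trans (show 3 < 8 by decide)
  refine simple_of_crit2 (K := ⊤) (P := P) (a := 8) (m := m) le_top hP (by decide) (by rw [card_top, hG]) hm ?_ ?_
    (topEquiv.trans φ) S
  · intro T hT hne hsc
    have hN : (T.subgroupOf P).Normal := ⟨fun x hx g => hsc g trivial x hx (g * x * g⁻¹).2⟩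
    obtain ⟨g, hg, hz, ho⟩ := CA.PGBasic.exists_mem_center_orderOf h2 (M := T.subgroupOf P)
      (fun e => hne (by rw [Subgroup.subgroupOf_eq_bot, disjoint_iff, inf_eq_left.2 hT] at e; exact e))
    obtain ⟨e, he⟩ := hw g g.2
    have h3 : x 7 ∈ T := by
      rcases nf_cen e (fun i hi => (k _ _ (by simpa using ⟨by omega, l e⟩) (by
        intro j hj
        rcases List.mem_append.1 hj with hj | hj
        exacts [l e j hj, by simp at hj; omega])).1 (by
          have := congrArg Subtype.val (mem_center_iff.1 hz ⟨x i, hx i (by omega)⟩)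
          rw [pv_cons, pv_append, ← he]
          simpa [pv] using this)) with h | h
      · have : g = 1 := Subtype.ext (he.trans ((k _ _ (l e) (by simp)).2 h))
        rw [this, orderOf_one] at ho
        exact absurd ho (by decide)
      · have : g.1 ∈ T := hg
        rw [he, (k _ _ (l e) (by simp)).2 h] at this
        simpa [pv] using this
    intro g hg
    obtain ⟨e, rfl⟩ := hw g hg
    refine pv_mem fun i hi => ?_
    obtain ⟨c, h⟩ := isConj_iff.1 (hc i (nf_lt e i hi))
    exact h ▸ hsc c trivial _ h3 (h ▸ hx i (l e i hi))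
  · intro g _ hg
    let y : ℕ → P := fun i => if h : x i ∈ P then ⟨x i, h⟩ else 1
    have hy : ∀ w : List ℕ, (∀ i ∈ w, i < 8) → ((pv y w : P) : G) = pv x w := fun w h => by
      rw [show ((pv y w : P) : G) = _ from map_pv P.subtype y w]
      exact congrArg List.prod (List.map_congr_left fun i hi => by simp only [y, dif_pos (hx i (h i hi))]; rfl)
    have hb : Function.Bijective fun e => pv y (nf e) := Function.Surjective.bijective_of_nat_card_le
      (fun g => by
        obtain ⟨e, he⟩ := hw g g.2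
        exact ⟨e, Subtype.ext ((hy _ (l e)).trans he.symm)⟩) (by rw [hP]; simp)
    have hs : ∀ e, pv y (nf e) * pv y (nf e) = 1 ↔ act (ex (nf e ++ nf e)) 0 = act (ex []) 0 := fun e => by
      rw [← k _ _ (fun j hj => (List.mem_append.1 hj).elim (l e j) (l e j)) (by simp), pv_append, Subtype.ext_iff,
        coe_mul, hy _ (l e)]
      rfl
    obtain ⟨j, r, hr', e⟩ := Nat.exists_eq_two_pow_mul_odd (orderOf_pos g).ne'
    have cop : Nat.Coprime r 2 := Nat.coprime_two_right.2 hr'
    have zp : ∀ (a : G) (n : ℕ), a ^ n = 1 → ∀ b ∈ zpowers a, b ^ n = 1 := fun a n h b ⟨z, hz⟩ => by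
      rw [← hz, ← zpow_natCast, ← zpow_mul, mul_comm, zpow_mul, zpow_natCast, h, one_zpow]
    have e1 : (g ^ 2 ^ j) ^ r = 1 := by rw [← pow_mul, ← e, pow_orderOf_eq_one]
    have e2 : (g ^ r) ^ 2 ^ j = 1 := by rw [← pow_mul, mul_comm, ← e, pow_orderOf_eq_one]
    have hu : g ^ 2 ^ j ∈ centralizer (P : Set G) := by
      refine CA.Coprime2.le_centralizer_of_commutator_le_frattini (A := zpowers (g ^ 2 ^ j)) (K := P) ?_ ?_ (mem_zpowers _)
      · rw [Nat.card_zpowers]
        exact ((cop.pow_right 8).coprime_dvd_left (orderOf_dvd_of_pow_eq_one e1)).coprime_dvd_right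
          (hP ▸ card_subgroup_dvd_card _)
      · intro a ha c hc
        have h3 : a ∈ normalizer (P : Set G) := zpowers_le.2 (pow_mem hg _) ha
        obtain ⟨n, rfl⟩ := hr'
        refine ⟨P.normalizerMonoidHom ⟨a, h3⟩ ⟨c, hc⟩ * ⟨c, hc⟩⁻¹, ?_, rfl⟩
        simp only [frattini, Order.radical, SetLike.mem_coe, mem_iInf]
        intro M hM
        have h4 := CA.PGBasic.index_eq_of_isCoatom h2 hM
        have h5 := autfix y hb hs (P.normalizerMonoidHom ⟨a, h3⟩) n
          (by rw [← map_pow, show (⟨a, h3⟩ : normalizer (P : Set G)) ^ (2 * n + 1) = 1 from Subtype.ext (zp _ _ e1 a ha),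
            map_one]) M h4
        rw [mul_mem_iff_of_index_two h4, inv_mem_iff]
        conv_lhs => rw [← h5]
        exact smul_mem_pointwise_smul_iff
    have hv : g ^ r ∈ P := by
      have h3 : IsPGroup 2 (P ⊔ zpowers (g ^ r) : Subgroup G) :=
        IsPGroup.to_sup_of_normal_left' h2 (fun b => ⟨j, Subtype.ext (zp _ _ e2 b b.2)⟩) (zpowers_le.2 (pow_mem hg _))
      obtain ⟨i, hi⟩ := IsPGroup.iff_card.1 h3
      have h4 : 2 ^ i ∣ 2 ^ 8 := (((Nat.Prime.coprime_iff_not_dvd Nat.prime_two).2 hm).pow_left i).dvd_of_dvd_mul_right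
        (hi ▸ hG ▸ card_subgroup_dvd_card _)
      rw [eq_of_le_of_card_ge (le_sup_left : P ≤ P ⊔ zpowers (g ^ r)) (by rw [hi, hP]; exact Nat.le_of_dvd (by decide) h4)]
      exact mem_sup_right (mem_zpowers _)
    have e3 : g = (g ^ 2 ^ j) ^ Nat.gcdA (2 ^ j) r * (g ^ r) ^ Nat.gcdB (2 ^ j) r := by
      rw [← zpow_natCast, ← zpow_natCast, ← zpow_mul, ← zpow_mul, ← zpow_add, ← Nat.gcd_eq_gcd_ab,
        (cop.symm.pow_left j : Nat.gcd _ _ = 1), Nat.cast_one, zpow_one]
    rw [e3]
    exact mul_mem (zpow_mem (cent_mem_Gd (mem_top _) hu) _) (zpow_mem (le_Gd le_top hv) _)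

end CA.LyF
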