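import Cfsg.Agent.Lib.Spor.LyF2
import Cfsg.Agent.Lib.Spor.LyF3
import Cfsg.Agent.Lib.Spor.LyF4
import Cfsg.Agent.Lib.Spor.Ly111

/-! Elements of the Lyons group satisfying the presentation of `LyF0`. -/

set_option autoImplicit false
set_option maxRecDepth 100000

namespace CA.LyF
open CA.CNet CA.CWord CA.CMat CA.PkM CA.PkW CA.CPres CA.Ly111 Cfsg.Spor Matrix

noncomputable def mx (i : ℕ) : Matrix (Fin 111) (Fin 111) (ZMod 5) := val 5 111 (E i)

theorem eq_spec {u v : List ℕ} (h : eqOK u v = true) : pv mx u = pv mx v := by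
  unfold eqOK at h
  rw [forceL_eq, forceL_eq, band_iff, lmap_eq, lmap_eq, lapp_eq, lall_iff] at h
  have e : ∀ w : List ℕ, mev 5 111 E (w.map fun a => Nat.mul 2 a) = pv mx w := fun w => by
    rw [mev, pv, List.map_map]
    exact congrArg List.prod (List.map_congr_left fun a _ => by
      show val 5 111 (E (2 * a / 2)) = _
      rw [Nat.mul_div_cancel_left a (by decide)]; rfl)
  rw [← e, ← e]
  generalize (u.map fun a => Nat.mul 2 a) = u' at h
  generalize (v.map fun a => Nat.mul 2 a) = v' at h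
  ext i j
  have h1 := allR_spec h.2 i.2
  rw [force_eq, force_eq, force_eq] at h1
  have h2 : vec 5 111 (65536 ^ (i : ℕ)) = Pi.single i 1 := by
    ext l; rw [PkM.vec, dg_pow, Pi.single_apply]; simp [Fin.ext_iff, eq_comm]
  have h3 : vec 5 111 (aw 5 E u' (65536 ^ (i : ℕ))) j = vec 5 111 (aw 5 E v' (65536 ^ (i : ℕ))) j :=
    (ZMod.natCast_eq_natCast_iff' _ _ 5).2 (veq_spec h1 j j.2)
  rw [vec_aw (by decide) (by decide) hE u' (fun a ha => Nat.blt_eq.mp (h.1 a (List.mem_append_left _ ha))),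
    vec_aw (by decide) (by decide) hE v' (fun a ha => Nat.blt_eq.mp (h.1 a (List.mem_append_right _ ha))), h2,
    single_one_vecMul, single_one_vecMul] at h3
  exact h3

theorem rel_spec {p : List ℕ × List ℕ} (hp : p ∈ rels) : pv (fun i => mx (10 + i)) p.1 = pv (fun i => mx (10 + i)) p.2 := by
  have h := eq_spec ((List.mem_append.1 hp).elim (lall_iff.1 hA p) (lall_iff.1 hB p))
  rwa [lmap_eq, lmap_eq, pv, pv, List.map_map, List.map_map] at h

theorem exists_rep : ∃ ρ : Ly →* Matrix (Fin 111) (Fin 111) (ZMod 5), ∀ i < 10, ∃ y, ρ y = mx i := by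
  obtain ⟨g, h1, h2⟩ := exists_gl (p := 5) (n := 111) (by decide) (by decide) hF hI
  obtain ⟨φ, h5⟩ := LyRel.enc.hom _ _ fun r hr => h2 σ r (lall_iff.1 Ly111.rels r hr)
  have e : ∀ i < 5, ((φ (pg Ly.edges Ly.extra LyRel.gen i) : GL (Fin 111) (ZMod 5)) : Matrix (Fin 111) (Fin 111) (ZMod 5)) =
      val 5 111 (F (2 * i)) := fun i hi => by
    rw [h5 i (by omega), (by decide +kernel : ∀ i < 5, nth σ [] i = [2 * i]) i hi, ev_gen, h1 i (by omega)]
  have h3 : ∀ i < 5, val 5 111 (F (2 * i)) * val 5 111 (F (2 * i + 1)) = 1 := fun i hi => by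
    have := mev_one (p := 5) (n := 111) (by decide) (by decide) hF (w := [4 * i, 4 * i + 2]) (by simp; omega)
      fun j hj => allR_spec (allR_spec hI (show i < 10 by omega)) hj
    simpa [mev, show 4 * i / 2 = 2 * i by omega, show (4 * i + 2) / 2 = 2 * i + 1 by omega] using this
  let ρ : Ly →* Matrix (Fin 111) (Fin 111) (ZMod 5) := (Units.coeHom _).comp φ
  have h4 : ∀ i < 5, (∃ y, ρ y = val 5 111 (F (2 * i))) ∧ ∃ y, ρ y = val 5 111 (F (2 * i + 1)) := fun i hi =>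
    ⟨⟨_, e i hi⟩, (pg Ly.edges Ly.extra LyRel.gen i)⁻¹, by
      rw [← mul_one (ρ _), ← h3 i hi, ← show ρ _ = _ from e i hi, ← mul_assoc, ← map_mul, inv_mul_cancel, map_one, one_mul]⟩
  refine ⟨ρ, fun i hi => ?_⟩
  interval_cases i
  exacts [(h4 0 (by decide)).1, (h4 0 (by decide)).2, (h4 1 (by decide)).1, (h4 1 (by decide)).2, (h4 2 (by decide)).1,
    (h4 2 (by decide)).2, (h4 3 (by decide)).1, (h4 3 (by decide)).2, (h4 4 (by decide)).1, (h4 4 (by decide)).2]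

theorem elts [IsSimpleGroup Ly] : ∃ x : ℕ → Ly, (∀ p ∈ rels, pv x p.1 = pv x p.2) ∧ x 7 ≠ 1 ∧ ∀ i < 3, IsConj (x 7) (x i) := by
  obtain ⟨ρ, h⟩ := exists_rep
  have im : ∀ w : List ℕ, (∀ i ∈ w, ∃ y, ρ y = mx i) → ∃ y, ρ y = pv mx w := fun w hw =>
    (MonoidHom.mrange ρ).list_prod_mem fun a ha => by
      obtain ⟨i, hi, rfl⟩ := List.mem_map.1 ha
      exact hw i hi
  have one : ∀ i, pv mx [i] = mx i := fun i => mul_one _
  have cj : ∀ (w : List ℕ) (i j : ℕ) (s : Ly), (∀ a ∈ w, a < 10) → ρ s = mx j → eqOK (w ++ [i]) ([j] ++ w) = true →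
      ∃ t, ρ t = mx i ∧ IsConj s t := fun w i j s hw hs e => by
    obtain ⟨y, hy⟩ := im w fun a ha => h a (hw a ha)
    have := eq_spec e
    rw [pv, pv, List.map_append, List.map_append, List.prod_append, List.prod_append, ← pv, ← pv, ← pv, one, one,
      ← hy, ← hs] at this
    refine ⟨y⁻¹ * s * y, ?_, isConj_iff.2 ⟨y⁻¹, by rw [inv_inv]⟩⟩
    rw [map_mul, map_mul, mul_assoc, ← this, ← mul_assoc, ← map_mul, inv_mul_cancel, map_one, one_mul]
  obtain ⟨z, hz⟩ := im [0, 0, 0, 0] fun a ha => h a (by simp at ha; omega)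
  rw [eq_spec dZ, one] at hz
  obtain ⟨t0, e0, c0⟩ := cj _ _ _ z (by decide) hz d0
  obtain ⟨t1, e1, c1⟩ := cj _ _ _ t0 (by decide) e0 d1
  obtain ⟨t2, e2, c2⟩ := cj _ _ _ t0 (by decide) e0 d2
  obtain ⟨t3, e3⟩ := im [12, 10, 12, 10] (by simpa using ⟨⟨_, e2⟩, ⟨_, e0⟩, ⟨_, e2⟩, ⟨_, e0⟩⟩)
  rw [eq_spec d3, one] at e3
  obtain ⟨t4, e4⟩ := im [11, 12, 11, 12] (by simpa using ⟨⟨_, e1⟩, ⟨_, e2⟩, ⟨_, e1⟩, ⟨_, e2⟩⟩)
  rw [eq_spec d4, one] at e4
  obtain ⟨t5, e5⟩ := im [10, 14, 10, 14] (by simpa using ⟨⟨_, e0⟩, ⟨_, e4⟩, ⟨_, e0⟩, ⟨_, e4⟩⟩)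
  rw [eq_spec d5, one] at e5
  obtain ⟨t6, e6⟩ := im [13, 13] (by simpa using ⟨_, e3⟩)
  rw [eq_spec d6, one] at e6
  have hz1 : ρ z ≠ 1 := hz ▸ neZ
  have hi : Function.Injective ρ := by
    rcases (MonoidHom.normal_ker ρ).eq_bot_or_eq_top with e | e
    · exact (MonoidHom.ker_eq_bot_iff ρ).1 e
    · exact absurd (show z ∈ ρ.ker from e ▸ Subgroup.mem_top z) hz1
  let x : ℕ → Ly := fun i => [t0, t1, t2, t3, t4, t5, t6, z].getD i 1
  have hx : ∀ i < 8, ρ (x i) = mx (10 + i) := fun i hi => by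
    interval_cases i
    exacts [e0, e1, e2, e3, e4, e5, e6, hz]
  have hw : ∀ w : List ℕ, (∀ i ∈ w, i < 8) → ρ (pv x w) = pv (fun i => mx (10 + i)) w := fun w hw => by
    rw [pv, pv, map_list_prod, List.map_map]
    exact congrArg List.prod (List.map_congr_left fun i hi => hx i (hw i hi))
  refine ⟨x, fun p hp => hi ?_, fun e => hz1 (by rw [show z = 1 from e, map_one]), fun i hi => ?_⟩
  · obtain ⟨a, b⟩ := (by decide +kernel : ∀ p ∈ rels, (∀ i ∈ p.1, i < 8) ∧ ∀ i ∈ p.2, i < 8) p hp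
    rw [hw _ a, hw _ b, rel_spec hp]
  · interval_cases i
    exacts [c0, c0.trans c1, c0.trans c2]

end CA.LyF
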