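import Cfsg.Agent.Lib.Spor.LyS3
import Cfsg.Agent.Lib.Grp.SchurHopf
import Cfsg.Agent.S1710
import Cfsg.Agent.S2100

/-! Every stem extension of the presented Lyons group is an isomorphism. -/

set_option autoImplicit false
set_option maxRecDepth 100000

namespace CA.LyS
open CA.CWord CA.CPres Cfsg Cfsg.Spor

variable {Γ : Type*} [Group Γ]

def upd (g : ℕ → Γ) (Z : Γ) (i : ℕ) : Γ := if i = 4 then Z else g i

theorem shape (g : ℕ → Γ) (Z : Γ) : (LyRel.rels.drop 72).map (ev (upd g Z)) =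
    (List.range 8).map (fun i => Z⁻¹ * ev g (nth us [] i) * Z * (ev g (nth vs [] i))⁻¹) ++
    [Z * Z * (ev g [30])⁻¹,
     ev g [18] * (Z * ev g [18] * Z * ev g [18] * Z * ev g [30, 18]) * (ev g [18])⁻¹,
     ev g [40] * (Z * ev g [62] * Z * ev g [70] * Z * ev g [40]) * (ev g [40])⁻¹,
     Z⁻¹ * ev g [34] * Z⁻¹ * ev g [72] * Z * ev g [32] * Z * (ev g [39])⁻¹,
     Z * ev g [66] * Z * (ev g [65])⁻¹ * Z⁻¹ * ev g [68] * Z⁻¹ * ev g [74],
     Z * ev g [42] * Z * (ev g [37])⁻¹ * Z⁻¹ * ev g [44] * Z⁻¹ * ev g [76]] := by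
  rw [show LyRel.rels.drop 72 = [[9, 20, 8, 47], [9, 22, 8, 49], [9, 24, 8, 51], [9, 26, 8, 53], [9, 28, 8, 55],
    [9, 12, 8, 57], [9, 14, 8, 59], [9, 16, 8, 61], [8, 8, 31], [18, 8, 18, 8, 18, 8, 30], [40, 8, 62, 8, 70, 8],
    [9, 34, 9, 72, 8, 32, 8, 38], [8, 66, 8, 64, 9, 68, 9, 74], [8, 42, 8, 36, 9, 44, 9, 76]] from by decide +kernel,
    show List.range 8 = [0, 1, 2, 3, 4, 5, 6, 7] from rfl]
  simp [lv, upd, mul_assoc, us, vs]

theorem cen_of_conj {x t : Γ} (h : x * t * x⁻¹ ∈ Subgroup.center Γ) : t ∈ Subgroup.center Γ := by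
  have := cen_conj h x⁻¹
  rw [show x⁻¹ * (x * t * x⁻¹) * x⁻¹⁻¹ = t by group] at this
  exact this ▸ h

theorem lift_z {Q : Type*} [Group Q] (σ : Γ →* Q) (hσ : σ.ker ≤ Subgroup.center Γ) {g : ℕ → Γ}
    (hw : ∀ w, OK w = true → ev g w = 1) {z : Q} {Z0 : Γ} (h0 : σ Z0 = z)
    (hr : ∀ r ∈ LyRel.rels.drop 72, ev (upd (fun i => σ (g i)) z) r = 1) :
    ∃ Z, σ Z = z ∧ ∀ r ∈ LyRel.rels.drop 72, ev (upd g Z) r = 1 := by
  have hk : ∀ Z, σ Z = z → ∀ x ∈ (LyRel.rels.drop 72).map (ev (upd g Z)), x ∈ σ.ker := fun Z hZ =>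
    List.forall_mem_map.2 fun r h => by
      rw [MonoidHom.mem_ker, map_ev, ← hr r h]
      congr 1; funext i; unfold upd; split <;> simp [hZ]
  obtain ⟨Z, hZ, hn⟩ : ∃ Z, σ Z = z ∧
      Z * ev g [18] * Z * ev g [18] * Z * ev g [30, 18] = Z * Z * (ev g [30])⁻¹ := by
    have h := hk Z0 h0
    rw [shape, List.forall_mem_append] at h
    have h1 := h.2 _ List.mem_cons_self
    have h2 := (MonoidHom.normal_ker σ).mem_comm (h.2 _ (List.mem_cons_of_mem _ List.mem_cons_self))
    rw [inv_mul_cancel_left] at h2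
    have hb := Subgroup.mul_mem _ h1 (Subgroup.inv_mem _ h2)
    generalize hβ : Z0 * Z0 * (ev g [30])⁻¹ * (Z0 * ev g [18] * Z0 * ev g [18] * Z0 * ev g [30, 18])⁻¹ = β at hb
    refine ⟨Z0 * β, by rw [map_mul, h0, hb, mul_one], ?_⟩
    have e : Z0 * Z0 * (ev g [30])⁻¹ = β * (Z0 * ev g [18] * Z0 * ev g [18] * Z0 * ev g [30, 18]) := by
      rw [← hβ, inv_mul_cancel_right]
    have hc := hσ hb
    calc _ = β * β * (β * (Z0 * ev g [18] * Z0 * ev g [18] * Z0 * ev g [30, 18])) := by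
          simp only [mul_assoc, cen_l hc]
      _ = _ := by rw [← e]; simp only [mul_assoc, cen_l hc]
  refine ⟨Z, hZ, (List.forall_mem_map (P := fun x => x = 1)).1 ?_⟩
  have h := fun x hx => hσ (hk Z hZ x hx)
  rw [shape, List.forall_mem_append, List.forall_mem_map] at h ⊢
  simp only [List.forall_mem_cons, List.mem_range] at h ⊢
  obtain ⟨h1, h2, h3, h4, h5, h6, h7, -⟩ := h
  have hK := conjK hw h1 h2 (cen_of_conj h3) rfl rfl
  have e2 := d_one hw hK h2 rfl hn
  have e3 := hn.trans e2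
  have e4 := c_one hw hK (cen_of_conj h4) e2 e3 rfl
  refine ⟨fun i hi => ?_, e2, by rw [e3]; group, by rw [e4]; group, ?_, ?_, ?_, by simp⟩
  · have := hK [2 * i]
    rw [ev_subst, ev_subst, ev_gen, ev_gen] at this
    rw [this, mul_inv_cancel]
  · refine quad hw hK h5 [32] [72] [39] [0, 2, 6, 1, 7, 3, 0] [[10], [12], [14]] [[11], [13], [15]] ?_
      (by decide) (by decide +kernel) (by decide +kernel) (by decide +kernel) (by decide +kernel)
    rw [Subgroup.mem_center_iff.1 h5, eqw hw (u := [34]) (v := winv [32]) (by decide +kernel), ev_winv]; group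
  · refine quad hw hK h6 [66] [74] [65] [0, 5, 7, 0, 6, 1, 6] [[0], [10, 15, 13], [14, 7, 10, 1, 13]]
      [[2, 2, 6], [10, 13, 15], [10, 10]] ?_
      (by decide) (by decide +kernel) (by decide +kernel) (by decide +kernel) (by decide +kernel)
    rw [← cen_conj h6 (Z * ev g [66] * Z)⁻¹, eqw hw (u := [68]) (v := winv [66]) (by decide +kernel), ev_winv]; group
  · refine quad hw hK h7 [42] [76] [37] [0, 2, 2, 0, 3, 3, 1, 3, 3] [[12], [14]] [[11], [13]] ?_
      (by decide) (by decide +kernel) (by decide +kernel) (by decide +kernel) (by decide +kernel)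
    rw [← cen_conj h7 (Z * ev g [42] * Z)⁻¹, eqw hw (u := [44]) (v := winv [42]) (by decide +kernel), ev_winv]; group

/-- a central extension splits over a perfect subgroup with trivial multiplier -/
theorem exists_sec {Q : Type*} [Group Q] {σ : Γ →* Q} (hs : Function.Surjective σ)
    (hc : σ.ker ≤ Subgroup.center Γ) (H : Subgroup Q) (hH : HasCyclicSchurMultiplier H 1)
    (hp : commutator H = ⊤) : ∃ s : H →* Γ, ∀ x, σ (s x) = x := by
  let ψ : H.comap σ →* H := σ.subgroupComap H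
  have h1 : Function.Surjective ψ := σ.subgroupComap_surjective_of_surjective H hs
  have h2 : ψ.ker ≤ Subgroup.center _ := fun x hx => Subgroup.mem_center_iff.2 fun y =>
    Subtype.ext (Subgroup.mem_center_iff.1 (hc (congrArg Subtype.val hx)) y.1)
  have h3 := SchurHopf.mult_eq_bot hH ψ h1 h2
  let χ := ψ.comp (commutator (H.comap σ)).subtype
  have h4 : Function.Bijective χ := ⟨(injective_iff_map_eq_one _).2 fun x hx => Subtype.ext
    (Subgroup.mem_bot.1 (h3 ▸ SchurHopf.mem_mult.2 ⟨hx, x.2⟩)), fun y => by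
      have : y ∈ (commutator (H.comap σ)).map ψ := by
        rw [map_commutator_eq, MonoidHom.range_eq_top.2 h1, ← commutator_def, hp]; trivial
      obtain ⟨x, hx, e⟩ := this
      exact ⟨⟨x, hx⟩, e⟩⟩
  let e := MulEquiv.ofBijective χ h4
  exact ⟨(H.comap σ).subtype.comp ((commutator (H.comap σ)).subtype.comp e.symm.toMonoidHom),
    fun x => congrArg Subtype.val (e.apply_symm_apply x)⟩

theorem ev_upd {g g' : ℕ → Γ} {w : Word} (h : ∀ a ∈ w, g (a / 2) = g' (a / 2)) : ev g w = ev g' w := by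
  unfold ev
  rw [List.map_congr_left fun a ha => ?_]
  unfold lv; rw [h a ha]

theorem ker_bot (Γ : Type) [Group Γ] (σ : Γ →* Ly) (hσ : IsStemExtension σ) : σ.ker = ⊥ := by
  let P := pg Ly.edges Ly.extra LyRel.gen
  let p : ℕ → Ly := fun i => if i = 4 ∨ 39 ≤ i then 1 else P i
  have hl : ∀ r ∈ r72, ∀ a ∈ r, ¬(a / 2 = 4 ∨ 39 ≤ a / 2) := by decide +kernel
  have hr : ∀ r ∈ r72, ev p r = 1 := fun r h => by
    rw [← LyRel.enc.hold r (List.mem_of_mem_take h)]
    exact ev_upd fun a ha => if_neg (hl r h a ha)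
  have h4 : p 4 = 1 := if_pos (Or.inl rfl)
  have h39 : ∀ i, 39 ≤ i → p i = 1 := fun i hi => if_pos (Or.inr hi)
  have hH : grp p LyG2.gens = grp P LyG2.gens :=
    grp_congr (k := 4) (fun i hi => if_neg (by omega)) (by decide)
  obtain ⟨K, _, _, hK, ⟨e⟩⟩ := Cfsg.Agent.S1710.result
  rw [map_closure_eq (gen := LyRel.gen) LyG2.gens (l := [_, _, _, _]) rfl
    (fun x => by simp only [Set.mem_insert_iff, Set.mem_singleton_iff, List.mem_cons,
      List.not_mem_nil, or_false]; rfl)] at e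
  have e' : grp p LyG2.gens ≃* Lie.chevG2.group K := (MulEquiv.subgroupCongr hH).trans e
  obtain ⟨hs, hn⟩ := Cfsg.Agent.S1055.result (F := K) (by
    classical
    by_contra hh
    push Not at hh
    have : (Finset.univ : Finset K) ⊆ {0, 1} := fun a _ => by
      by_cases h : a = 0
      · simp [h]
      · simp [hh a h]
    have := (Finset.card_le_card this).trans Finset.card_le_two
    rw [Finset.card_univ, hK] at this
    omega)
  haveI : IsSimpleGroup (grp p LyG2.gens) := e'.isSimpleGroup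
  obtain ⟨s, hs'⟩ := exists_sec hσ.1 hσ.2.1 (grp p LyG2.gens)
    (SchurHopf.congr_left (Cfsg.Agent.S2100.result (F := K) hK.ge) e'.symm) (by
      refine (IsSimpleGroup.eq_bot_or_eq_top_of_normal _ inferInstance).resolve_left fun h => hn ⟨⟨fun a b => ?_⟩⟩
      apply e'.symm.injective
      rw [map_mul, map_mul, ← commutatorElement_eq_one_iff_mul_comm, ← Subgroup.mem_bot, ← h]
      exact Subgroup.commutator_mem_commutator trivial trivial)
  let q : ℕ → grp p LyG2.gens := fun i => ⟨p i, mem_all hr h4 h39 i⟩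
  let g : ℕ → Γ := fun i => s (q i)
  have hg : ∀ w, ev p w = 1 → ev g w = 1 := fun w h => by
    have : ev q w = 1 := Subtype.ext ((map_ev (Subgroup.subtype _) q w).trans h)
    rw [← map_ev s q w, this, map_one]
  have hσg : (fun i => σ (g i)) = p := funext fun i => hs' _
  have hP : ∀ i < 39, upd p (P 4) i = P i := fun i hi => by
    unfold upd; split
    · rename_i h; rw [h]
    · exact if_neg (by omega)
  obtain ⟨Z0, h0⟩ := hσ.1 (P 4)
  obtain ⟨Z, hZ, hrel⟩ := lift_z σ hσ.2.1 (fun w h => hg w (hword hr h4 h39 w h)) h0 fun r h => by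
    rw [hσg, ← LyRel.enc.hold r (List.mem_of_mem_drop h)]
    exact ev_congr hP ((by decide +kernel : ∀ r ∈ LyRel.rels.drop 72, ∀ a ∈ r, a < 2 * 39) r h)
  obtain ⟨φ, hφ⟩ := LyRel.enc.hom Γ (upd g Z) fun r h => by
    rw [← List.take_append_drop 72 LyRel.rels, List.mem_append] at h
    rcases h with h | h
    · rw [← hg r (hr r h)]
      exact ev_upd fun a ha => if_neg fun e => hl r h a ha (Or.inl e)
    · exact hrel r h
  have hid : ∀ x, σ (φ x) = x := fun x => by
    have : grp P LyRel.gens ≤ (σ.comp φ).eqLocus (MonoidHom.id _) := (grp_le_iff _).2 fun w hw => by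
      obtain ⟨i, hi, rfl⟩ := (by decide +kernel : ∀ w ∈ LyRel.gens, ∃ i < 39, [2 * i] = w) w hw
      rw [ev_gen]
      show σ (φ (P i)) = P i
      rw [hφ i hi, ← hP i hi, ← hσg, ← hZ]
      unfold upd; split <;> rfl
    exact this (by rw [LyRel.enc.top _ (by decide +kernel)]; trivial)
  have hsurj := SchurHopf.surj_of_stem hσ φ fun x => ⟨x, hid x⟩
  refine eq_bot_iff.2 fun a ha => ?_
  obtain ⟨x, rfl⟩ := hsurj a
  have : x = 1 := (hid x).symm.trans ha
  rw [this, map_one]; exact Subgroup.one_mem _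

theorem mult_Ly [Finite Ly] : HasCyclicSchurMultiplier Ly 1 :=
  SchurHopf.has_one fun Γ _ _ σ hσ => ker_bot Γ σ hσ

end CA.LyS
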