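/-
Ree's inequality for the numbers of cycles of `x`, `y` and `x * y`.
-/
import Mathlib

set_option autoImplicit false

namespace CA.ReeCyc
open Module

variable {D α : Type*} [Group D] [MulAction D α] [Fintype α]

/-- `g` has at least `k` cycles -/
def Cyc (α : Type*) [MulAction D α] (g : D) (k : ℕ) : Prop :=
  ∃ lab : α → Fin k, Function.Surjective lab ∧ ∀ p, lab (g • p) = lab p

omit [Fintype α] in
theorem Cyc.conj {g : D} {k : ℕ} (h : Cyc α g k) (a : D) : Cyc α (a * g * a⁻¹) k := by
  obtain ⟨lab, h1, h2⟩ := h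
  exact ⟨fun p => lab (a⁻¹ • p), h1.comp (MulAction.surjective a⁻¹), fun p => by
    simp only [mul_smul, inv_smul_smul, h2]⟩

omit [Fintype α] in
theorem cyc_one [Nonempty α] (g : D) : Cyc α g 1 :=
  ⟨fun _ => 0, fun j => ⟨Classical.arbitrary α, Subsingleton.elim _ j⟩, fun _ => rfl⟩

/-- `f ↦ f ∘ g - f` -/
noncomputable def dl (α : Type*) [MulAction D α] (g : D) : (α → ℚ) →ₗ[ℚ] (α → ℚ) :=
  LinearMap.funLeft ℚ ℚ (g • ·) - LinearMap.id

omit [Fintype α] in
theorem dl_apply (g : D) (f : α → ℚ) (p : α) : dl α g f p = f (g • p) - f p := rfl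

omit [Fintype α] in
theorem mem_ker {g : D} {f : α → ℚ} : f ∈ LinearMap.ker (dl α g) ↔ ∀ p, f (g • p) = f p := by
  simp only [LinearMap.mem_ker, funext_iff, dl_apply, Pi.zero_apply, sub_eq_zero]

theorem Cyc.le {g : D} {k : ℕ} (h : Cyc α g k) : k ≤ finrank ℚ (LinearMap.ker (dl α g)) := by
  obtain ⟨lab, h1, h2⟩ := h
  have := LinearMap.finrank_le_finrank_of_injective
    (f := (LinearMap.funLeft ℚ ℚ lab).codRestrict (LinearMap.ker (dl α g)) fun f => mem_ker.2 fun p => congrArg f (h2 p))
    fun f f' e => LinearMap.funLeft_injective_of_surjective ℚ ℚ lab h1 (congrArg Subtype.val e)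
  rwa [finrank_fin_fun] at this

theorem ree {x y : D} (S : Finset α) (hS : ∀ p, ∃ s ∈ S, ∃ g ∈ Subgroup.closure {x, y}, g • s = p) {a b c : ℕ}
    (ha : Cyc α x a) (hb : Cyc α y b) (hc : Cyc α (x * y) c) : a + b + c ≤ Fintype.card α + 2 * S.card := by
  classical
  have h1 := (dl α x).finrank_range_add_finrank_ker
  have h2 := (dl α y).finrank_range_add_finrank_ker
  have h3 := Submodule.finrank_sup_add_finrank_inf_eq (LinearMap.range (dl α x)) (LinearMap.range (dl α y))
  have h4 := ((dl α x).domRestrict (LinearMap.ker (dl α (x * y)))).finrank_range_add_finrank_ker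
  have h5 : finrank ℚ (LinearMap.range ((dl α x).domRestrict (LinearMap.ker (dl α (x * y))))) ≤
      finrank ℚ ↥(LinearMap.range (dl α x) ⊓ LinearMap.range (dl α y)) := by
    refine Submodule.finrank_mono ?_
    rintro _ ⟨v, rfl⟩
    refine ⟨⟨v, rfl⟩, fun p => -v.1 (x • p), funext fun p => ?_⟩
    rw [LinearMap.domRestrict_apply, dl_apply, dl_apply, ← mul_smul, mem_ker.1 v.2]
    ring
  have h6 : finrank ℚ (LinearMap.ker ((dl α x).domRestrict (LinearMap.ker (dl α (x * y))))) ≤ S.card := by
    have h7 := LinearMap.finrank_le_finrank_of_injective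
      (f := (LinearMap.funLeft ℚ ℚ (Subtype.val : S → α)) ∘ₗ (LinearMap.ker (dl α (x * y))).subtype ∘ₗ
        (LinearMap.ker ((dl α x).domRestrict (LinearMap.ker (dl α (x * y))))).subtype)
      ((injective_iff_map_eq_zero _).2 fun v hv => ?_)
    · rwa [finrank_fintype_fun_eq_card, Fintype.card_coe] at h7
    have hx : ∀ p, v.1.1 (x • p) = v.1.1 p := mem_ker.1 v.2
    have hg : ∀ g ∈ Subgroup.closure {x, y}, ∀ p, v.1.1 (g • p) = v.1.1 p := fun g hg => by
      induction hg using Subgroup.closure_induction with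
      | mem g hg =>
        rcases hg with rfl | rfl
        · exact hx
        · exact fun p => by rw [← hx, ← mul_smul, mem_ker.1 v.1.2]
      | one => simp
      | mul g k _ _ h h' => exact fun p => by rw [mul_smul, h, h']
      | inv g _ h => exact fun p => by rw [← h, smul_inv_smul]
    refine Subtype.ext (Subtype.ext (funext fun p => ?_))
    obtain ⟨s, hs, g, hg', rfl⟩ := hS p
    rw [hg g hg']
    exact congrFun hv ⟨s, hs⟩
  have h7 : ∀ g : D, ∀ p : α, (Pi.single p 1 - Pi.single (g • p) 1 : α → ℚ) ∈ LinearMap.range (dl α g) := fun g p =>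
    ⟨Pi.single (g • p) 1, funext fun q => by
      simp only [dl_apply, Pi.sub_apply, Pi.single_apply, smul_left_cancel_iff]⟩
  have h8 : ∀ g ∈ Subgroup.closure {x, y}, ∀ p : α, (Pi.single p 1 - Pi.single (g • p) 1 : α → ℚ) ∈
      LinearMap.range (dl α x) ⊔ LinearMap.range (dl α y) := fun g hg => by
    induction hg using Subgroup.closure_induction with
    | mem g hg =>
      rcases hg with rfl | rfl
      · exact fun p => Submodule.mem_sup_left (h7 _ p)
      · exact fun p => Submodule.mem_sup_right (h7 _ p)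
    | one => simp
    | mul g k _ _ h h' => exact fun p => by simpa [mul_smul] using add_mem (h' p) (h (k • p))
    | inv g _ h => exact fun p => by simpa using neg_mem (h (g⁻¹ • p))
  have h9 : (⊤ : Submodule ℚ (α → ℚ)) ≤ (LinearMap.range (dl α x) ⊔ LinearMap.range (dl α y)) ⊔
      Submodule.span ℚ (S.image fun s => (Pi.single s 1 : α → ℚ)) := by
    rw [← (Pi.basisFun ℚ α).span_eq, Submodule.span_le]
    rintro _ ⟨p, rfl⟩
    obtain ⟨s, hs, g, hg, rfl⟩ := hS p
    have := sub_mem (Submodule.mem_sup_right (Submodule.subset_span (Finset.mem_coe.2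
      (Finset.mem_image_of_mem (fun s => (Pi.single s 1 : α → ℚ)) hs)))) (Submodule.mem_sup_left (h8 g hg s))
    simpa using this
  have h10 := (Submodule.finrank_mono h9).trans (Submodule.finrank_add_le_finrank_add_finrank _ _)
  have h11 := (finrank_span_finset_le_card (R := ℚ) (S.image fun s => (Pi.single s 1 : α → ℚ))).trans
    Finset.card_image_le
  rw [finrank_top] at h10
  rw [finrank_fintype_fun_eq_card] at h1 h2 h10
  have := ha.le
  have := hb.le
  have := hc.le
  rw [Set.finrank] at h11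
  omega

end CA.ReeCyc
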